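import Cfsg.Agent.Mult.E
import Cfsg.Agent.Mult.Emb

set_option autoImplicit false
set_option maxRecDepth 100000

/-!
The Steinberg group of type E6 inside the one of type E7 (helper19, after Mult.Emb).
-/

namespace Cfsg.Agent.ChevF

open Cfsg Cfsg.Lie Cfsg.Agent.Chev Cfsg.Agent.Steinb Cfsg.Agent.ChevGrp Cfsg.Agent.Mult

/-- check of one row -/
def rowOK' (D D' : ChevalleyDatum) (P Q r : ℕ) : Bool :=
  ((D.chain.getD r #[]).toList.all fun e => entEq P (D'.chainEntry (ioP P r) (ioP P e.1)) e.2.toList) &&
  ((D'.chain.getD (ioP P r) #[]).toList.all fun e => !(Nat.blt (ioP Q e.1) D.nroots && Nat.beq (ioP P (ioP Q e.1)) e.1) ||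
    (D.chain.getD r #[]).toList.any fun e' => Nat.beq e'.1 (ioP Q e.1))

/-- check of the embedding -/
def chkEmb' (D D' : ChevalleyDatum) (P Q : ℕ) : Bool :=
  (allN D.rank fun i => Nat.beq (ioP P (D.simple i)) (D'.simple i)) &&
  (allN D.nroots fun r => Nat.blt (ioP P r) D'.nroots && (Nat.beq (ioP P (Nat.sub (Nat.sub D.nroots 1) r)) (Nat.sub (Nat.sub D'.nroots 1) (ioP P r)) &&
    (Nat.beq (ioP Q (ioP P r)) r && rowOK' D D' P Q r)))

/-- properties of the embedding -/
structure EmbOK' (D D' : ChevalleyDatum) (io : ℕ → ℕ) : Prop where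
  simple : ∀ i < D.rank, io (D.simple i) = D'.simple i
  lt : ∀ r < D.nroots, io r < D'.nroots
  neg : ∀ r < D.nroots, io (D.neg r) = D'.neg (io r)
  ne : ∀ r < D.nroots, ∀ s < D.nroots, s ≠ r → s ≠ D.neg r → io s ≠ io r ∧ io s ≠ D'.neg (io r)
  terms : ∀ r < D.nroots, ∀ s < D.nroots, s ≠ r → s ≠ D.neg r →
    D'.commTerms (io r) (io s) = (D.commTerms r s).map fun c => (io c.1, c.2)

lemma emb_of_chk' {D D' : ChevalleyDatum} (H : Good1 D) (H' : Good1 D') (S : SL D) (S8 : SL D') {P Q : ℕ} (h : chkEmb' D D' P Q = true) :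
    EmbOK' D D' (ioP P) := by
  unfold chkEmb' at h
  rw [Bool.and_eq_true] at h
  obtain ⟨h1, h2⟩ := h
  have hlt : ∀ r < D.nroots, ioP P r < D'.nroots := fun r hr => by
    have := allN_imp h2 hr
    rw [Bool.and_eq_true] at this
    exact blt_lt this.1
  have hneg : ∀ r < D.nroots, ioP P (D.neg r) = D'.neg (ioP P r) := by
    intro r hr
    have := allN_imp h2 hr
    rw [Bool.and_eq_true, Bool.and_eq_true] at this
    have h3 := Nat.eq_of_beq_eq_true this.2.1
    rw [H.neg_eq r hr, H'.neg_eq _ (hlt r hr)]
    exact h3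
  have hinv : ∀ r < D.nroots, ioP Q (ioP P r) = r := by
    intro r hr
    have := allN_imp h2 hr
    rw [Bool.and_eq_true, Bool.and_eq_true, Bool.and_eq_true] at this
    exact Nat.eq_of_beq_eq_true this.2.2.1
  have hinj : ∀ r < D.nroots, ∀ s < D.nroots, ioP P s = ioP P r → s = r := by
    intro r hr s hs e
    rw [← hinv r hr, ← hinv s hs, e]
  have hrow : ∀ r < D.nroots, rowOK' D D' P Q r = true := by
    intro r hr
    have := allN_imp h2 hr
    rw [Bool.and_eq_true, Bool.and_eq_true, Bool.and_eq_true] at this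
    exact this.2.2.2
  have hchain : ∀ r < D.nroots, ∀ s < D.nroots, D'.chainEntry (ioP P r) (ioP P s) =
      (D.chainEntry r s).map fun q => (ioP P q.1, q.2) := by
    intro r hr s hs
    have h3 := hrow r hr
    unfold rowOK' at h3
    rw [Bool.and_eq_true, List.all_eq_true, List.all_eq_true] at h3
    obtain ⟨h3, h4⟩ := h3
    have hD : D.chainEntry r s = match (D.chain.getD r #[]).toList.find? (fun e => e.1 = s) with
      | none => []
      | some e => e.2.toList := rfl
    rw [hD]
    cases hf : (D.chain.getD r #[]).toList.find? (fun e => e.1 = s) with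
    | some e =>
      have he := List.find?_some hf
      simp only [decide_eq_true_eq] at he
      have h5 := entEq_iff (h3 e (List.mem_of_find?_eq_some hf))
      rw [he] at h5
      exact h5
    | none =>
      simp only [List.map_nil]
      have h8 : D'.chainEntry (ioP P r) (ioP P s) = match (D'.chain.getD (ioP P r) #[]).toList.find? (fun e => e.1 = ioP P s) with
        | none => []
        | some e => e.2.toList := rfl
      rw [h8]
      cases hf8 : (D'.chain.getD (ioP P r) #[]).toList.find? (fun e => e.1 = ioP P s) with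
      | none => rfl
      | some e8 =>
        exfalso
        have he := List.find?_some hf8
        simp only [decide_eq_true_eq] at he
        have h5 := h4 e8 (List.mem_of_find?_eq_some hf8)
        rw [he, hinv s hs, Bool.or_eq_true, List.any_eq_true] at h5
        rcases h5 with h5 | ⟨e', he', h6⟩
        · rw [Bool.not_eq_true', ← Bool.not_eq_true, Bool.and_eq_true] at h5
          exact h5 ⟨Nat.ble_eq_true_of_le hs, Nat.beq_eq ▸ rfl⟩
        · have h7 := List.find?_eq_none.1 hf e' he'
          simp only [decide_eq_true_eq] at h7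
          exact h7 (Nat.eq_of_beq_eq_true h6)
  refine ⟨fun i hi => Nat.eq_of_beq_eq_true (allN_imp h1 hi), hlt, hneg, fun r hr s hs hne hnn => ⟨?_, ?_⟩, fun r hr s hs _ _ => ?_⟩
  · intro e
    exact hne (hinj r hr s hs e)
  · rw [← hneg r hr]
    intro e
    exact hnn (hinj _ (neg_lt H hr) s hs e)
  · have h3 := hchain r hr s hs
    rcases S.terms r s with ⟨h4, h5⟩ | ⟨k, M, -, h4, h5⟩
    · rcases S8.terms (ioP P r) (ioP P s) with ⟨h6, h7⟩ | ⟨k', M', -, h6, h7⟩
      · rw [h5, h7]; rfl
      · rw [h4, h6] at h3; simp at h3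
    · rcases S8.terms (ioP P r) (ioP P s) with ⟨h6, h7⟩ | ⟨k', M', -, h6, h7⟩
      · rw [h4, h6] at h3; simp at h3
      · rw [h4, h6] at h3
        simp only [List.map_cons, List.map_nil, List.cons.injEq, Prod.mk.injEq, and_true] at h3
        rw [h5, h7, h3.1, h3.2]; rfl

section

variable {D D' : ChevalleyDatum} {F : Type*} [Field F] {Γ : Type*} [Group Γ]

/-- the homomorphism to the Steinberg group of type E8 -/
theorem exists_emb' (H : Good D) (H8 : Good D') {io : ℕ → ℕ} (E : EmbOK' D D' io) (Q8 : StSt H8 F Γ) :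
    ∃ φ : D.SteinbergGroup F →* Γ, ∀ r < D.nroots, ∀ t, φ (D.stGen F r t) = Q8.x (io r) t := by
  apply exists_hom_raw H (fun r t => Q8.x (io r) t)
  · intro r hr t u
    exact Q8.add (E.lt r hr) t u
  · intro r hr s hs h1 h2 t u
    obtain ⟨h3, h4⟩ := E.ne r hr s hs h1 h2
    have h5 := Q8.comm (E.lt r hr) (E.lt s hs) h3 h4 t u
    rw [h5]
    unfold ChevalleyDatum.commWord
    rw [E.terms r hr s hs h1 h2, List.map_map, List.map_map, List.map_map]
    rfl
  · intro r hr t u ht hu
    have h5 := Q8.r3 (E.lt r hr) ht hu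
    simp only [PreSt.hr, PreSt.nr] at h5
    rw [E.neg r hr]
    exact h5

end

def P67 : ℕ := 115405654456261975262062563519370248459153122930113167453877683025277421099657617807453909370359699450632505700151916789492471309899131733474062792756324204620920313313298950
def Q67 : ℕ := 2743062034396837337183520792131547177617950469499120088083139293604655380199951896711936255889528635220434109059309138802533327538221487854317644557996150174879414383922242102411398268444960832811946454224856454054670776120141206511253490520397957954555355352229046599671802636069587363057142361910935551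

theorem chk67 : chkEmb' chevE6 chevE7 P67 Q67 = true := by decide +kernel

theorem emb67 : EmbOK' chevE6 chevE7 (ioP P67) := emb_of_chk' good1_E6 good1_E7 slData_E6.sl slData_E7.sl chk67



end Cfsg.Agent.ChevF
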