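import Cfsg.Agent.ChevF.E6Tor
import Cfsg.Agent.ChevF.Emb67

set_option autoImplicit false

/-!
The Weyl group of type E7 as a group of isometries (helper19).
-/

namespace Cfsg.Agent.ChevF

open Cfsg.Lie Cfsg.Agent.Chev Cfsg.Agent.ChevGrp Cfsg.Agent.Steinb Matrix Polynomial

/-- the Cartan matrix of type E7 -/
def CE7 : Matrix (Fin 7) (Fin 7) ℤ :=
  !![2, 0, -1, 0, 0, 0, 0; 0, 2, 0, -1, 0, 0, 0; -1, 0, 2, -1, 0, 0, 0; 0, -1, -1, 2, -1, 0, 0; 0, 0, 0, -1, 2, -1, 0;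
    0, 0, 0, 0, -1, 2, -1; 0, 0, 0, 0, 0, -1, 2]

lemma CE7_form (x : Fin 7 → ℤ) : x ⬝ᵥ (CE7 *ᵥ x) =
    2 * (x 0 ^ 2 + x 1 ^ 2 + x 2 ^ 2 + x 3 ^ 2 + x 4 ^ 2 + x 5 ^ 2 + x 6 ^ 2 - x 0 * x 2 - x 1 * x 3 - x 2 * x 3 - x 3 * x 4 -
      x 4 * x 5 - x 5 * x 6) := by
  simp only [dotProduct, Matrix.mulVec, Fin.sum_univ_seven, CE7, Matrix.of_apply, Matrix.cons_val', Matrix.cons_val_zero,
    Matrix.cons_val_one, Matrix.cons_val]
  ring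

lemma CE7_pos (x : Fin 7 → ℤ) (hx : x ≠ 0) : 0 < x ⬝ᵥ (CE7 *ᵥ x) := by
  rw [CE7_form]
  by_contra hcon
  have key : 24 * (x 0 ^ 2 + x 1 ^ 2 + x 2 ^ 2 + x 3 ^ 2 + x 4 ^ 2 + x 5 ^ 2 + x 6 ^ 2 - x 0 * x 2 - x 1 * x 3 - x 2 * x 3 -
      x 3 * x 4 - x 4 * x 5 - x 5 * x 6) =
      6 * (2 * x 0 - x 2) ^ 2 + 2 * (3 * x 2 - 2 * x 3) ^ 2 + 6 * (2 * x 6 - x 5) ^ 2 + 2 * (3 * x 5 - 2 * x 4) ^ 2 +
        (4 * x 4 - 3 * x 3) ^ 2 + 6 * (2 * x 1 - x 3) ^ 2 + x 3 ^ 2 := by ring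
  have h1 := sq_nonneg (2 * x 0 - x 2)
  have h2 := sq_nonneg (3 * x 2 - 2 * x 3)
  have h3 := sq_nonneg (2 * x 6 - x 5)
  have h4 := sq_nonneg (3 * x 5 - 2 * x 4)
  have h5 := sq_nonneg (4 * x 4 - 3 * x 3)
  have h6 := sq_nonneg (2 * x 1 - x 3)
  have h7 := sq_nonneg (x 3)
  have z : ∀ y : ℤ, y ^ 2 = 0 → y = 0 := fun y hy => pow_eq_zero_iff (two_ne_zero) |>.1 hy
  have e7 := z (x 3) (by linarith)
  have e1 := z _ (show (2 * x 0 - x 2) ^ 2 = 0 by linarith)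
  have e2 := z _ (show (3 * x 2 - 2 * x 3) ^ 2 = 0 by linarith)
  have e3 := z _ (show (2 * x 6 - x 5) ^ 2 = 0 by linarith)
  have e4 := z _ (show (3 * x 5 - 2 * x 4) ^ 2 = 0 by linarith)
  have e5 := z _ (show (4 * x 4 - 3 * x 3) ^ 2 = 0 by linarith)
  have e6 := z _ (show (2 * x 1 - x 3) ^ 2 = 0 by linarith)
  apply hx
  funext i
  rw [Pi.zero_apply]
  fin_cases i
  · show x 0 = 0; omega
  · show x 1 = 0; omega
  · show x 2 = 0; omega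
  · show x 3 = 0; omega
  · show x 4 = 0; omega
  · show x 5 = 0; omega
  · show x 6 = 0; omega

lemma CE7_sym : CE7ᵀ = CE7 := by decide

lemma hE7 : chevE7 ∈ data := by simp [data]

/-- fundamental reflections in rank seven -/
def Rm7 (i : Fin 7) : Matrix (Fin 7) (Fin 7) ℤ := Rm chevE7 i

lemma cart7 : (Matrix.of fun i j : Fin 7 => chevE7.cartan i (chevE7.simple j)) = CE7 := by decide +kernel

lemma Rm_C7 : ∀ i : Fin 7, (Rm7 i)ᵀ * CE7 * Rm7 i = CE7 := by decide +kernel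

lemma Rm7_eq : ∀ i : Fin 7, Rm7 i = 1 - Matrix.of fun k j => if k = i then CE7 i j else 0 := by decide +kernel

lemma sym7 : SymC chevE7 := by
  have h : ∀ i j : Fin 7, chevE7.cartan i (chevE7.simple j) = chevE7.cartan j (chevE7.simple i) := by decide +kernel
  exact h

variable (E : DData chevE7)

/-- the matrix of a Weyl group element, in rank seven -/
noncomputable def wm7 (u : Equiv.Perm (Fin chevE7.nroots)) : Matrix (Fin 7) (Fin 7) ℤ := wm E u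

/-- root coordinates -/
def rv7 (s : Fin chevE7.nroots) : Fin 7 → ℤ := rv chevE7 s

/-- fundamental reflections as permutations -/
noncomputable def w7 (i : Fin 7) : Equiv.Perm (Fin chevE7.nroots) := E.rp.wsys.w i

/-- fundamental roots -/
noncomputable def p7 (i : Fin 7) : Fin chevE7.nroots := E.rp.wsys.p i

lemma wm7_one : wm7 E 1 = 1 := wm_one E (good_of_mem hE7)

lemma wm7_w (i : Fin 7) (u : Equiv.Perm (Fin chevE7.nroots)) : wm7 E (w7 E i * u) = Rm7 i * wm7 E u :=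
  wm_w_mul E (good_of_mem hE7) i u

lemma wm7_mul {u v : Equiv.Perm (Fin chevE7.nroots)} (hu : u ∈ E.rp.wsys.W) : wm7 E (u * v) = wm7 E u * wm7 E v :=
  wm_mul E (good_of_mem hE7) hu

lemma W7_ind {Q : Equiv.Perm (Fin chevE7.nroots) → Prop} (h1 : Q 1) (h2 : ∀ i : Fin 7, ∀ u ∈ E.rp.wsys.W, Q u → Q (w7 E i * u))
    {u : Equiv.Perm (Fin chevE7.nroots)} (hu : u ∈ E.rp.wsys.W) : Q u :=
  E.rp.wsys.W_induction (Q := Q) h1 (fun i u hu h => h2 i u hu h) hu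

lemma conj7 (s : Fin chevE7.nroots) : ∃ u ∈ E.rp.wsys.W, ∃ i : Fin 7, u (p7 E i) = s := E.rp.wsys.exists_conj_p s

lemma w7_mem (i : Fin 7) : w7 E i ∈ E.rp.wsys.W := E.rp.wsys.w_mem i

lemma wm7_C {u : Equiv.Perm (Fin chevE7.nroots)} (hu : u ∈ E.rp.wsys.W) : (wm7 E u)ᵀ * CE7 * wm7 E u = CE7 := by
  refine W7_ind E (Q := fun u => (wm7 E u)ᵀ * CE7 * wm7 E u = CE7) ?_ ?_ hu
  · rw [wm7_one, Matrix.transpose_one, one_mul, mul_one]
  · intro i u _ ih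
    have h2 := Rm_C7 i
    rw [wm7_w, Matrix.transpose_mul]
    calc (wm7 E u)ᵀ * (Rm7 i)ᵀ * CE7 * (Rm7 i * wm7 E u)
        = (wm7 E u)ᵀ * ((Rm7 i)ᵀ * CE7 * Rm7 i) * wm7 E u := by noncomm_ring
      _ = CE7 := by rw [h2, ih]

lemma rv7_p (i : Fin 7) : rv7 (p7 E i) = Pi.single i 1 := by
  have G := good_of_mem hE7
  funext k
  have h1 : rv7 (p7 E i) k = if (i : ℕ) = k then 1 else 0 := by
    show vec chevE7 (p7 E i) k = _
    have h2 : ((p7 E i : Fin chevE7.nroots) : ℕ) = chevE7.simple i := p_val E i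
    rw [h2]
    exact G.vec_simple i i.2 k k.2
  rw [h1, Pi.single_apply]
  by_cases h : k = i
  · rw [if_pos h, if_pos (by rw [h])]
  · rw [if_neg h, if_neg (by rw [Fin.val_inj]; exact fun h' => h h'.symm)]

lemma rv7_W {u : Equiv.Perm (Fin chevE7.nroots)} (hu : u ∈ E.rp.wsys.W) (s : Fin chevE7.nroots) :
    rv7 (u s) = wm7 E u *ᵥ rv7 s := rv_W E (good_of_mem hE7) hu s

include E in
lemma norm7 (s : Fin chevE7.nroots) : rv7 s ⬝ᵥ (CE7 *ᵥ rv7 s) = 2 := by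
  obtain ⟨u, hu, i, rfl⟩ := conj7 E s
  rw [rv7_W E hu, dot_inv (wm7_C E hu), rv7_p, Matrix.mulVec_single_one, single_one_dotProduct]
  revert i
  decide

/-- reflections -/
theorem exists_refl7 (s : Fin chevE7.nroots) : ∃ w ∈ E.rp.wsys.W,
    ∀ x : Fin 7 → ℤ, wm7 E w *ᵥ x = x - (rv7 s ⬝ᵥ (CE7 *ᵥ x)) • rv7 s := by
  obtain ⟨u, hu, i, rfl⟩ := conj7 E s
  refine ⟨u * w7 E i * u⁻¹, mul_mem (mul_mem hu (w7_mem E i)) (inv_mem hu), fun x => ?_⟩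
  have h1 : wm7 E (u * w7 E i * u⁻¹) = wm7 E u * Rm7 i * wm7 E u⁻¹ := by
    have e2 : wm7 E (w7 E i) = Rm7 i := by
      have := wm7_w E i 1
      rw [mul_one, wm7_one, mul_one] at this
      exact this
    rw [wm7_mul E (mul_mem hu (w7_mem E i)), wm7_mul E hu, e2]
  have h2 : wm7 E u * wm7 E u⁻¹ = 1 := by rw [← wm7_mul E hu, mul_inv_cancel, wm7_one]
  have hR : ∀ y : Fin 7 → ℤ, Rm7 i *ᵥ y = y - ((Pi.single i 1 : Fin 7 → ℤ) ⬝ᵥ (CE7 *ᵥ y)) • (Pi.single i 1 : Fin 7 → ℤ) := by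
    intro y
    rw [single_one_dotProduct, Rm7_eq, Matrix.sub_mulVec, Matrix.one_mulVec]
    congr 1
    funext k
    rw [Pi.smul_apply, Pi.single_apply, smul_eq_mul]
    simp only [Matrix.mulVec, dotProduct, Matrix.of_apply]
    by_cases hk : k = i
    · simp only [if_pos hk, mul_one]
    · simp only [if_neg hk, zero_mul, Finset.sum_const_zero, mul_zero]
  have h3 : ∀ y, (wm7 E u *ᵥ (Pi.single i 1)) ⬝ᵥ (CE7 *ᵥ (wm7 E u *ᵥ y)) = (Pi.single i 1 : Fin 7 → ℤ) ⬝ᵥ (CE7 *ᵥ y) := fun y =>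
    dot_inv (wm7_C E hu) _ y
  have h4 : wm7 E u *ᵥ (wm7 E u⁻¹ *ᵥ x) = x := by rw [Matrix.mulVec_mulVec, h2, Matrix.one_mulVec]
  rw [rv7_W E hu, rv7_p, h1, ← Matrix.mulVec_mulVec, ← Matrix.mulVec_mulVec, hR, Matrix.mulVec_sub, Matrix.mulVec_smul, h4]
  have := h3 (wm7 E u⁻¹ *ᵥ x)
  rw [h4] at this
  rw [this]

/-- the norm of a subgroup -/
theorem exists_Nm7 {K : Type*} [Field K] {S : Subgroup (Equiv.Perm (Fin chevE7.nroots))} (hSW : S ≤ E.rp.wsys.W)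
    {u : Equiv.Perm (Fin chevE7.nroots)} (hu : u ∈ E.rp.wsys.W) (hnorm : ∀ v ∈ S, u⁻¹ * v * u ∈ S) :
    ∃ Nm : Matrix (Fin 7) (Fin 7) ℤ,
      (∀ R : ℤ[X], ∀ v ∈ S, wm7 E v * (aeval (wm7 E u) R * Nm) = aeval (wm7 E u) R * Nm) ∧
      ∀ (t : GL chevE7.Idx K) (r : ℕ) [Fact r.Prime] (z : K) (a : Fin chevE7.rank → ℤ) (q : ℕ), IsPrimitiveRoot z r →
        t ∈ chevE7.diagonalSubgroup K → t ≠ 1 → (∀ i, ev t (E.rp.wsys.p i) = z ^ a i) → (∀ s, ev t (u s) = ev t s ^ q) →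
        (∀ v ∈ S, ∀ s, ev t (v s) = ev t s) → ¬ r ∣ Nat.card E.rp.wsys.W → ∀ R : ℤ[X],
        (R.map (Int.castRingHom (ZMod r))).eval (q : ZMod r) ≠ 0 → aeval (wm7 E u) R * Nm ≠ 0 :=
  exists_Nm E hE7 hSW hu hnorm


/-- the inclusion of the lattice of type E6 -/
def J67 : Matrix (Fin 7) (Fin 6) ℤ := Matrix.of fun i j => if (i : ℕ) = (j : ℕ) then 1 else 0

lemma J_Rm : ∀ i : Fin 6, Rm7 i.castSucc * J67 = J67 * Rm6 i := by decide +kernel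

lemma J_C : J67ᵀ * CE7 * J67 = CE6 := by decide +kernel

lemma row_Rm : ∀ i : Fin 6, (Pi.single 6 1 : Fin 7 → ℤ) ᵥ* Rm7 i.castSucc = Pi.single 6 1 := by decide +kernel

variable (E₆ : DData chevE6)

/-- words -/
noncomputable def wd6 (l : List (Fin 6)) : Equiv.Perm (Fin chevE6.nroots) := E₆.rp.wsys.wd l

/-- words -/
noncomputable def wd7 (l : List (Fin 7)) : Equiv.Perm (Fin chevE7.nroots) := E.rp.wsys.wd l

lemma wd6_cons (i : Fin 6) (l : List (Fin 6)) : wd6 E₆ (i :: l) = w6 E₆ i * wd6 E₆ l := WSys.wd_cons (S := E₆.rp.wsys) i l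

lemma wd7_cons (i : Fin 7) (l : List (Fin 7)) : wd7 E (i :: l) = w7 E i * wd7 E l := WSys.wd_cons (S := E.rp.wsys) i l

lemma wd6_nil : wd6 E₆ [] = 1 := WSys.wd_nil (S := E₆.rp.wsys)

lemma wd7_nil : wd7 E [] = 1 := WSys.wd_nil (S := E.rp.wsys)

lemma wd6_mem (l : List (Fin 6)) : wd6 E₆ l ∈ E₆.rp.wsys.W := E₆.rp.wsys.wd_mem l

lemma wd7_mem (l : List (Fin 7)) : wd7 E l ∈ E.rp.wsys.W := E.rp.wsys.wd_mem l

lemma wm7_J (l : List (Fin 6)) : wm7 E (wd7 E (l.map Fin.castSucc)) * J67 = J67 * wm6 E₆ (wd6 E₆ l) := by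
  induction l with
  | nil => rw [List.map_nil, wd7_nil, wd6_nil, wm7_one, wm6_one, Matrix.one_mul, Matrix.mul_one]
  | cons i l ih =>
    rw [List.map_cons, wd7_cons, wd6_cons, wm7_w, wm6_w, Matrix.mul_assoc, ih, ← Matrix.mul_assoc, J_Rm, Matrix.mul_assoc]

lemma wm7_row (l : List (Fin 6)) : (Pi.single 6 1 : Fin 7 → ℤ) ᵥ* wm7 E (wd7 E (l.map Fin.castSucc)) = Pi.single 6 1 := by
  induction l with
  | nil => rw [List.map_nil, wd7_nil, wm7_one, Matrix.vecMul_one]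
  | cons i l ih => rw [List.map_cons, wd7_cons, wm7_w, ← Matrix.vecMul_vecMul, row_Rm, ih]

end Cfsg.Agent.ChevF
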