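import Cfsg.Agent.ChevF.Inter

set_option autoImplicit false

/-!
The group isomorphism attached to an intertwining map, with its intertwining property.
-/

namespace Cfsg.Agent.ChevF

open Cfsg.Lie Cfsg.Agent.Chev Matrix

variable {F : Type*} [Field F]

/-- a group isomorphism from an intertwining injective linear map -/
theorem iso_of_inter2 {ι κ : Type*} [Fintype ι] [DecidableEq ι] [Fintype κ] [DecidableEq κ] {A B I : Type*} [Group A] [Group B]
    [Finite A] [Finite B] (α : A →* GL ι F) (β : B →* GL κ F) (hβ : Function.Injective β) (J : Matrix ι κ F)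
    (hJ : ∀ v : κ → F, J *ᵥ v = 0 → v = 0) (a : I → A) (b : I → B)
    (hab : ∀ i, (α (a i) : Matrix ι ι F) * J = J * (β (b i) : Matrix κ κ F))
    (ha : Subgroup.closure (Set.range a) = ⊤) (hb : Subgroup.closure (Set.range b) = ⊤)
    (hcard : Nat.card A ≤ Nat.card B) :
    ∃ e : A ≃* B, ∀ x, (α x : Matrix ι ι F) * J = J * (β (e x) : Matrix κ κ F) := by
  let Γ : Subgroup (A × B) := Subgroup.closure (Set.range fun i => (a i, b i))
  have hrel : ∀ g ∈ Γ, (α g.1 : Matrix ι ι F) * J = J * (β g.2 : Matrix κ κ F) := by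
    intro g hg
    induction hg using Subgroup.closure_induction with
    | mem x hx =>
      obtain ⟨i, rfl⟩ := hx
      exact hab i
    | one => simp
    | mul x y _ _ hx hy =>
      rw [Prod.fst_mul, Prod.snd_mul, map_mul, map_mul, Units.val_mul, Units.val_mul, Matrix.mul_assoc, hy,
        ← Matrix.mul_assoc, hx, Matrix.mul_assoc]
    | inv x _ hx =>
      rw [Prod.fst_inv, Prod.snd_inv, map_inv, map_inv]
      have h1 : ((α x.1)⁻¹ : GL ι F).val * (α x.1).val = 1 := by rw [← Units.val_mul, inv_mul_cancel]; rfl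
      have h2 : (β x.2).val * ((β x.2)⁻¹ : GL κ F).val = 1 := by rw [← Units.val_mul, mul_inv_cancel]; rfl
      calc ((α x.1)⁻¹ : GL ι F).val * J = ((α x.1)⁻¹ : GL ι F).val * (J * ((β x.2).val * ((β x.2)⁻¹ : GL κ F).val)) := by
            rw [h2, Matrix.mul_one]
        _ = ((α x.1)⁻¹ : GL ι F).val * (J * (β x.2).val) * ((β x.2)⁻¹ : GL κ F).val := by
            simp only [Matrix.mul_assoc]
        _ = ((α x.1)⁻¹ : GL ι F).val * ((α x.1).val * J) * ((β x.2)⁻¹ : GL κ F).val := by rw [hx]
        _ = (((α x.1)⁻¹ : GL ι F).val * (α x.1).val) * (J * ((β x.2)⁻¹ : GL κ F).val) := by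
            simp only [Matrix.mul_assoc]
        _ = _ := by rw [h1, Matrix.one_mul]
  have hfst : Γ.map (MonoidHom.fst A B) = ⊤ := by
    rw [MonoidHom.map_closure, ← Set.range_comp]
    exact ha
  have hsnd : Γ.map (MonoidHom.snd A B) = ⊤ := by
    rw [MonoidHom.map_closure, ← Set.range_comp]
    exact hb
  have hinj : Function.Injective ((MonoidHom.fst A B).comp Γ.subtype) := by
    rw [injective_iff_map_eq_one]
    rintro ⟨⟨x, y⟩, hg⟩ h
    have hx : x = 1 := h
    have h1 := hrel _ hg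
    simp only [hx, map_one, Units.val_one, Matrix.one_mul] at h1
    have h2 : (β y : Matrix κ κ F) = 1 := by
      have h3 : ∀ v : κ → F, (β y : Matrix κ κ F) *ᵥ v = v := by
        intro v
        have h4 := hJ ((β y : Matrix κ κ F) *ᵥ v - v) (by
          rw [Matrix.mulVec_sub, Matrix.mulVec_mulVec, ← h1, sub_self])
        exact sub_eq_zero.1 h4
      ext i j
      have h5 := congrFun (h3 (Pi.single j 1)) i
      rw [Matrix.mulVec_single_one] at h5
      rw [Matrix.one_apply, ← Pi.single_apply]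
      rw [Pi.single_comm] at *
      exact h5
    have h3 : y = 1 := hβ (by rw [map_one]; exact Units.ext h2)
    apply Subtype.ext
    exact Prod.ext hx h3
  have hsurj1 : Function.Surjective ((MonoidHom.fst A B).comp Γ.subtype) := by
    intro x
    have : x ∈ Γ.map (MonoidHom.fst A B) := by rw [hfst]; trivial
    obtain ⟨g, hg, h⟩ := this
    exact ⟨⟨g, hg⟩, h⟩
  have hsurj2 : Function.Surjective ((MonoidHom.snd A B).comp Γ.subtype) := by
    intro x
    have : x ∈ Γ.map (MonoidHom.snd A B) := by rw [hsnd]; trivial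
    obtain ⟨g, hg, h⟩ := this
    exact ⟨⟨g, hg⟩, h⟩
  obtain ⟨e1, he1⟩ : ∃ e1 : ↥Γ ≃* A, ∀ γ, e1 γ = (γ : A × B).1 := ⟨MulEquiv.ofBijective _ ⟨hinj, hsurj1⟩, fun _ => rfl⟩
  have hc1 : Nat.card ↥Γ = Nat.card A := Nat.card_congr e1.toEquiv
  have hbij : Function.Bijective ((MonoidHom.snd A B).comp Γ.subtype) := by
    have hle : Nat.card B ≤ Nat.card ↥Γ := Nat.card_le_card_of_surjective _ hsurj2
    have heq : Nat.card ↥Γ = Nat.card B := le_antisymm (hc1.trans_le hcard) hle
    exact (Nat.bijective_iff_surjective_and_card _).2 ⟨hsurj2, heq⟩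
  refine ⟨e1.symm.trans (MulEquiv.ofBijective _ hbij), fun x => ?_⟩
  obtain ⟨γ, rfl⟩ := e1.surjective x
  have h1 : (e1.symm.trans (MulEquiv.ofBijective _ hbij)) (e1 γ) = (γ : A × B).2 := by
    rw [MulEquiv.trans_apply, MulEquiv.symm_apply_apply]; rfl
  rw [h1, he1 γ]
  exact hrel _ γ.2

end Cfsg.Agent.ChevF
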