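import Cfsg.Agent.ChevF.E6F4
import Cfsg.Agent.ChevF.Inter2
import Cfsg.Agent.ChevU.IvE6
import Cfsg.Agent.ChevU.CentCls

set_option autoImplicit false
set_option maxRecDepth 100000

/-!
Involutions of the twisted groups of type E6 in characteristic two.
-/

namespace Cfsg.Agent.ChevF

open Cfsg.Lie Cfsg.Agent.Chev Cfsg.Agent.ChevGrp Cfsg.Agent.ChevWeyl Cfsg.Agent.ChevTw Cfsg.Agent.ChevU Matrix

theorem conjword : eqW chevE6 (lookN chevE6) [(48, 1, 1, 0), (50, 1, 0, 1), (66, 1, 0, 0), (68, 1, 0, 0)]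
    [(71, 1, 1, 0), (71, 1, 0, 1), (66, 1, 0, 0), (68, 1, 0, 0), (48, 1, 1, 0), (50, 1, 0, 1)] = true := by decide +kernel

theorem rel1 : interF chevE6 chevF4 tJE6 [(71, 1, 0, 0)] [(47, 1, 0, 0)] = true := by decide +kernel
theorem rel2 : interF chevE6 chevF4 tJE6 [(66, 1, 0, 0), (68, 1, 0, 0)] [(44, 1, 0, 0)] = true := by decide +kernel
theorem rel3 : interF chevE6 chevF4 tJE6 [(71, 1, 0, 0), (66, 1, 0, 0), (68, 1, 0, 0)] [(47, 1, 0, 0), (44, 1, 0, 0)] = true := by decide +kernel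
theorem rel4 : interF chevE6 chevF4 tJE6 [(54, -1, 0, 0), (64, 1, 0, 0), (69, 1, 0, 0)] [(39, 1, 0, 0), (45, 1, 0, 0)] = true := by decide +kernel

theorem assocE : chkAssoc chevE6 ([54, 64, 69], [2, 0], [], [55, 65, 67]) = true := by decide +kernel
theorem comm_66 : chkWord chevE6 [68, 66] [66, 68] = true := by decide +kernel
theorem comm_71 : chkWord chevE6 [71, 68, 66] [71, 66, 68] = true := by decide +kernel
theorem comm_54 : chkWord chevE6 [64, 54, 69] [54, 64, 69] = true := by decide +kernel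
theorem comm_48 : chevE6.commTerms 48 50 = [] := by decide +kernel
theorem wvs : wv gpE6_1 71 = 71 ∧ wv gpE6_1 66 = 68 ∧ wv gpE6_1 68 = 66 ∧ wv gpE6_1 54 = 64 ∧ wv gpE6_1 64 = 54 ∧
  wv gpE6_1 69 = 69 ∧ wv gpE6_1 48 = 50 ∧ wv gpE6_1 50 = 48 := by decide +kernel
theorem cls48 : cE6 48 = cE6 50 := by decide +kernel

end Cfsg.Agent.ChevF
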