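import Cfsg.Agent.ChevU.InvAbs
import Cfsg.Agent.ChevGrp.Twist

set_option autoImplicit false

/-!
Involutions of groups with a split BN-pair of characteristic two and an odd torus.
-/

namespace Cfsg.Agent.ChevF

open Cfsg.Agent.ChevWeyl Cfsg.Agent.ChevGrp Cfsg.Agent.ChevU

variable {l n : ℕ} {S : WSys l n} {G : Type*} [Group G] {R : RGrp S G}

/-- involutions acting in the same way are conjugate under a torus of odd order -/
theorem conj_of_act {m ν : G} {w : Equiv.Perm (Fin n)} (hm : m ∈ R.N) (hw : R.Act m w) (hmm : m * m = 1)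
    (hν : ν ∈ R.N) (hνw : R.Act ν w) (hνν : ν * ν = 1) {k : ℕ} (hk : ∀ h ∈ R.H, h ^ k * h ^ k = h) :
    ∃ h ∈ R.H, h * m * h⁻¹ = ν := by
  have hνi : ν⁻¹ = ν := inv_eq_of_mul_eq_one_left hνν
  have hh : ν⁻¹ * m ∈ R.H := by
    apply RGrp.mem_H_of_act_one (mul_mem (inv_mem hν) hm)
    have := hνw.inv.mul hw
    rwa [inv_mul_cancel] at this
  obtain ⟨h, hhd⟩ : ∃ h, h = ν⁻¹ * m := ⟨_, rfl⟩
  rw [← hhd] at hh
  have hk' := hk h hh
  have hm' : m = ν * h := by rw [hhd]; group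
  have h4 : ν * h * ν⁻¹ = h⁻¹ := by
    rw [hm'] at hmm
    rw [hνi, eq_inv_iff_mul_eq_one]
    calc ν * h * ν * h = (ν * h) * (ν * h) := by group
      _ = 1 := hmm
  have h5 : ν * h ^ k * ν⁻¹ = (h ^ k)⁻¹ := by
    rw [← conj_pow, h4, inv_pow]
  have h7 : ν * h ^ k = (h ^ k)⁻¹ * ν := by rw [← h5]; group
  have h8 : h ^ k * ν = ν * (h ^ k)⁻¹ := by
    rw [mul_eq_of_eq_inv_mul]
    rw [← mul_assoc, ← h7]; group
  refine ⟨h ^ k, pow_mem hh k, ?_⟩
  rw [hm']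
  nth_rw 2 [← hk']
  calc h ^ k * (ν * (h ^ k * h ^ k)) * (h ^ k)⁻¹ = (h ^ k * ν) * h ^ k := by group
    _ = ν := by rw [h8]; group

/-- involutions are conjugate to products of the standard representatives -/
theorem exists_nd_conj {t : G} (ht : t ∈ R.Grp) (htt : t * t = 1) {k : ℕ} (hk : ∀ h ∈ R.H, h ^ k * h ^ k = h)
    (hsq : ∀ L, S.wd L * S.wd L = 1 → R.nd L * R.nd L = 1) :
    ∃ y ∈ R.Grp, ∃ L, y * t * y⁻¹ = R.nd L ∧ R.nd L * R.nd L = 1 := by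
  obtain ⟨y, hy, m, w, h1, h2, h3, h4, h5, -⟩ := exists_conj_monomial (Tw.one R) (t := t) (by
    rw [inv_one, mul_one]; exact ht) htt
  rw [inv_one, mul_one] at h2
  obtain ⟨L, rfl⟩ := S.exists_wd h3.1
  have h6 := hsq L h5
  obtain ⟨h, hh, h7⟩ := conj_of_act h2 h3 h4 (R.nd_mem_N L) (R.act_nd L) h6 hk
  refine ⟨h * y⁻¹, mul_mem ((R.H_le_B.trans R.B_le_Grp) hh) (inv_mem hy), L, ?_, h6⟩
  rw [← h7, ← h1]; group

/-- square roots in a group of odd exponent -/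
theorem sqrt_of_pow {M : Type*} [Group M] {h : M} {N k : ℕ} (hN : N + 1 = 2 * k) (hh : h ^ N = 1) : h ^ k * h ^ k = h := by
  rw [← pow_add, ← two_mul, ← hN, pow_succ, hh, one_mul]

end Cfsg.Agent.ChevF
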