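import Cfsg.Agent.ChevF.InvTE6
import Cfsg.Agent.ChevF.InvTw

set_option autoImplicit false
set_option maxRecDepth 100000

/-!
Involutions of the twisted groups of type E6 in characteristic two: reduction to the field with two elements.
-/

namespace Cfsg.Agent.ChevF

open Cfsg.Lie Cfsg.Agent.Chev Cfsg.Agent.ChevGrp Cfsg.Agent.ChevWeyl Cfsg.Agent.ChevTw Cfsg.Agent.ChevU Matrix

/-- the embedding of the prime field -/
noncomputable abbrev cst2 (K : Type*) [Field K] [CharP K 2] : ZMod 2 →+* K := ZMod.castHom (dvd_refl 2) K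

section red

variable {K : Type*} [Field K] [CharP K 2] (E : DData chevE6) (E' : DData chevF4)
  (φ : K ≃+* K) (hφφ : ∀ x, φ (φ x) = x) {q : ℕ} (hφ : ∀ t, φ t = t ^ q)

instance fact2 : Fact (Nat.Prime 2) := ⟨Nat.prime_two⟩

/-- the twisting data -/
noncomputable abbrev T6q (K : Type*) [Field K] (E : DData chevE6) (E' : DData chevF4)
    (φ : K ≃+* K) (hφφ : ∀ x, φ (φ x) = x) {q : ℕ} (hφ : ∀ t, φ t = t ^ q) : TwData (I6 K E).R E'.rp.wsys :=
  twE6 E' (I6 K E) φ hφφ hφ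

theorem phi_cst (φ : K ≃+* K) (t : ZMod 2) : φ (cst2 K t) = cst2 K t := by
  have : ((φ : K →+* K).comp (cst2 K)) = cst2 K := Subsingleton.elim _ _
  exact congrArg (fun f : ZMod 2 →+* K => f t) this

theorem iota_G1 {x : ↥(chevE6.group (ZMod 2))} (hx : x ∈ (T6' (ZMod 2) E E').G1) :
    fHom chevE6 (cst2 K) x ∈ (T6q K E E' φ hφφ hφ).G1 := by
  have h0 : (T6' (ZMod 2) E E').G1 = (twistedE6 (ZMod 2) (Fintype.card (ZMod 2))).subgroupOf (chevE6.group (ZMod 2)) := rfl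
  have h1 : (T6q K E E' φ hφφ hφ).G1 = (twistedE6 K q).subgroupOf (chevE6.group K) := rfl
  rw [h0, twE6_eq (H := good_of_mem hE6d) (RingEquiv.refl (ZMod 2)) pow_q6] at hx
  rw [h1, twE6_eq (H := good_of_mem hE6d) φ hφ]
  induction hx using Subgroup.closure_induction with
  | mem x hx =>
    apply Subgroup.subset_closure
    obtain ⟨j, hj, h⟩ := hx
    have k2 : ∀ r s : ℕ, x ∈ Y2 (good_of_mem hE6d) (ZMod 2) (RingEquiv.refl (ZMod 2)) r s →
        fHom chevE6 (cst2 K) x ∈ Y2 (good_of_mem hE6d) K φ r s := by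
      rintro r s ⟨t, rfl⟩
      refine ⟨cst2 K t, ?_⟩
      rw [map_mul, fHom_xG, fHom_xG, phi_cst]; rfl
    have k1 : ∀ r : ℕ, x ∈ Y1 (good_of_mem hE6d) (ZMod 2) (RingEquiv.refl (ZMod 2)) r →
        fHom chevE6 (cst2 K) x ∈ Y1 (good_of_mem hE6d) K φ r := by
      rintro r ⟨t, -, rfl⟩
      exact ⟨cst2 K t, phi_cst φ t, by rw [fHom_xG]⟩
    refine ⟨j, hj, ?_⟩
    interval_cases j
    · exact h.imp (k2 _ _) (k2 _ _)
    · exact h.imp (k2 _ _) (k2 _ _)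
    · exact h.imp (k1 _) (k1 _)
    · exact h.imp (k1 _) (k1 _)
  | one => rw [map_one]; exact one_mem _
  | mul x y _ _ hx hy => rw [map_mul]; exact mul_mem hx hy
  | inv x _ hx => rw [map_inv]; exact inv_mem hx

theorem iota_nG (r : ℕ) : fHom chevE6 (cst2 K) (nG (good_of_mem hE6d).toGood2 r 1) = nG (good_of_mem hE6d).toGood2 r 1 := by
  unfold nG
  rw [map_mul, map_mul, fHom_xG, fHom_xG, map_neg, map_inv₀, map_one]

theorem iota_nn (i : Fin chevE6.rank) : fHom chevE6 (cst2 K) ((I6 (ZMod 2) E).R.nn i) = (I6 K E).R.nn i := by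
  rw [(I6 (ZMod 2) E).nn_eq, (I6 K E).nn_eq]
  exact iota_nG _

theorem iota_nj (j : Fin chevF4.rank) : fHom chevE6 (cst2 K) ((T6' (ZMod 2) E E').nj j) = (T6q K E E' φ hφφ hφ).nj j := by
  show fHom chevE6 (cst2 K) (njE6 (I6 (ZMod 2) E) j) = njE6 (I6 K E) j
  obtain ⟨j, hj⟩ := j
  have hj' : j < 4 := hj
  interval_cases j
  · show fHom chevE6 (cst2 K) ((I6 (ZMod 2) E).R.nn _ * (I6 (ZMod 2) E).R.nn _) = (I6 K E).R.nn _ * (I6 K E).R.nn _
    rw [map_mul, iota_nn, iota_nn]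
  · show fHom chevE6 (cst2 K) ((I6 (ZMod 2) E).R.nn _ * (I6 (ZMod 2) E).R.nn _) = (I6 K E).R.nn _ * (I6 K E).R.nn _
    rw [map_mul, iota_nn, iota_nn]
  · exact iota_nn E _
  · exact iota_nn E _

theorem iota_nd (L : List (Fin chevF4.rank)) :
    fHom chevE6 (cst2 K) ((T6' (ZMod 2) E E').tw.nd L) = (T6q K E E' φ hφφ hφ).tw.nd L := by
  induction L with
  | nil => rw [RGrp.nd_nil, RGrp.nd_nil, map_one]
  | cons i L ih =>
    rw [RGrp.nd_cons, RGrp.nd_cons, map_mul, ih]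
    congr 1
    exact iota_nj E E' φ hφφ hφ i

theorem H2_triv {h : ↥(chevE6.group (ZMod 2))} (hh : h ∈ (I6 (ZMod 2) E).R.H) : h = 1 := by
  obtain ⟨R⟩ := nonempty_rootFacts (D := chevE6) (by simp)
  have h1 := diag_pow R (good_of_mem hE6d) (mem_diag6 E hh)
  rw [ZMod.card, pow_one] at h1
  exact Subtype.ext h1

theorem nd_sq2 {L : List (Fin chevF4.rank)} (hL : E'.rp.wsys.wd L * E'.rp.wsys.wd L = 1) :
    (T6' (ZMod 2) E E').tw.nd L * (T6' (ZMod 2) E E').tw.nd L = 1 := by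
  apply H2_triv E
  have h1 : (T6' (ZMod 2) E E').tw.nd L * (T6' (ZMod 2) E E').tw.nd L ∈ (T6' (ZMod 2) E E').tw.H := by
    apply RGrp.mem_H_of_act_one (mul_mem (RGrp.nd_mem_N L) (RGrp.nd_mem_N L))
    rw [← hL]
    exact (RGrp.act_nd L).mul (RGrp.act_nd L)
  exact h1.1

theorem exists_red {K : Type*} [Field K] [Fintype K] [CharP K 2] (E : DData chevE6) (E' : DData chevF4)
    (φ : K ≃+* K) (hφφ : ∀ x, φ (φ x) = x) {q : ℕ} (hφ : ∀ t, φ t = t ^ q) {t : ↥(chevE6.group K)}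
    (ht : t ∈ (T6q K E E' φ hφφ hφ).G1) (htt : t * t = 1) (ht1 : t ≠ 1) :
    ∃ y ∈ (T6q K E E' φ hφφ hφ).G1, ∃ ν ∈ (T6' (ZMod 2) E E').G1, ν * ν = 1 ∧ ν ≠ 1 ∧
      y * t * y⁻¹ = fHom chevE6 (cst2 K) ν := by
  obtain ⟨R⟩ := nonempty_rootFacts (D := chevE6) (by simp)
  obtain ⟨k, hk⟩ : ∃ k, Fintype.card K - 1 + 1 = 2 * k := by
    obtain ⟨n, hp, hn⟩ := FiniteField.card K 2
    obtain ⟨m, hm⟩ := Nat.exists_eq_succ_of_ne_zero n.ne_zero
    refine ⟨2 ^ m, ?_⟩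
    have h1 : Fintype.card K = 2 * 2 ^ m := by rw [hn, hm, pow_succ']
    have := Fintype.card_pos (α := K)
    omega
  obtain ⟨y, hy, L, h1, h2⟩ := exists_nd_conj (R := (T6q K E E' φ hφφ hφ).tw) (t := t) (by rw [TwData.tw_Grp]; exact ht) htt
    (k := k) (by
      intro h hh
      refine sqrt_of_pow (N := Fintype.card K - 1) hk ?_
      exact Subtype.ext (diag_pow R (good_of_mem hE6d) (mem_diag6 E hh.1)))
    (by
      intro L hL
      have h := congrArg (fHom chevE6 (cst2 K)) (nd_sq2 E E' hL)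
      rw [map_mul, iota_nd E E' φ hφφ hφ, map_one] at h
      exact h)
  rw [TwData.tw_Grp] at hy
  rw [← iota_nd E E' φ hφφ hφ] at h1 h2
  refine ⟨y, hy, (T6' (ZMod 2) E E').tw.nd L, ?_, ?_, ?_, h1⟩
  · have h3 : (T6' (ZMod 2) E E').tw.nd L ∈ (T6' (ZMod 2) E E').tw.Grp := RGrp.N_le_Grp (RGrp.nd_mem_N L)
    rwa [TwData.tw_Grp] at h3
  · rw [← map_mul, ← map_one (fHom chevE6 (cst2 K))] at h2
    exact fHom_injective _ h2
  · intro h
    apply ht1
    rw [h, map_one] at h1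
    have h3 : y * t = y := by
      have := congrArg (· * y) h1
      simpa using this
    exact mul_eq_left.1 h3

end red

end Cfsg.Agent.ChevF
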