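import Cfsg.Agent.ChevF.InvTE6b

set_option autoImplicit false
set_option maxRecDepth 100000

/-!
Involutions of the twisted groups of type E6 in characteristic two: representatives.
-/

namespace Cfsg.Agent.ChevF

open Cfsg.Lie Cfsg.Agent.Chev Cfsg.Agent.ChevGrp Cfsg.Agent.ChevWeyl Cfsg.Agent.ChevTw Cfsg.Agent.ChevU Matrix

section words
variable {D : ChevalleyDatum} (H : Good D) (F : Type*) [Field F]

/-- products of root elements with parameter one -/
noncomputable def tG (W : List ℕ) : ↥(D.group F) := (W.map fun r => xG H.toGood2 r (1 : F)).prod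

theorem tG_coe (W : List ℕ) : ((tG H F W : GL D.Idx F) : Matrix D.Idx D.Idx F) = (W.map fun r => D.x F r 1).prod := by
  induction W with
  | nil => rfl
  | cons r W ih =>
    have h1 : tG H F (r :: W) = xG H.toGood2 r 1 * tG H F W := rfl
    rw [h1, Subgroup.coe_mul, Units.val_mul, ih, xG_coe]; rfl

theorem tG_tL [CharP F 2] (W : List ℕ) : (tG H F W : GL D.Idx F) = tL H F W := by
  apply Units.ext
  rw [tG_coe, tL_coe]

theorem tG_nil : tG H F [] = 1 := rfl
theorem tG_cons (r : ℕ) (W : List ℕ) : tG H F (r :: W) = xG H.toGood2 r 1 * tG H F W := rfl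

theorem tG_chk [CharP F 2] {W W' : List ℕ} (h : chkWord D W W' = true) : tG H F W = tG H F W' := by
  apply Subtype.ext
  apply Units.ext
  rw [tG_coe, tG_coe]
  exact eq_of_chkWord h

theorem tG_map {K : Type*} [Field K] (f : F →+* K) (W : List ℕ) : fHom D f (tG H F W) = tG H K W := by
  induction W with
  | nil => rw [tG_nil, tG_nil, map_one]
  | cons r W ih => rw [tG_cons, tG_cons, map_mul, ih, fHom_xG, map_one]

end words

section iso
variable (K : Type*) [Field K] [Fintype K] (E : DData chevE6) (E' : DData chevF4)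

/-- the twisted group with trivial field automorphism is the group of type F4 -/
theorem iso6e : ∃ e : ↥(T6' K E E').G1 ≃* ↥(chevF4.group K), ∀ x : ↥(T6' K E E').G1,
    (((x : ↥(chevE6.group K)) : GL chevE6.Idx K) : Matrix chevE6.Idx chevE6.Idx K) * Jm chevE6 chevF4 tJE6 K =
      Jm chevE6 chevF4 tJE6 K * ((e x : GL chevF4.Idx K) : Matrix chevF4.Idx chevF4.Idx K) := by
  obtain ⟨a, ha, hcl⟩ := closure_sub _ _ (G1_gen6 (K := K) E E')
  refine iso_of_inter2 (((chevE6.group K).subtype).comp (T6' K E E').G1.subtype) (chevF4.group K).subtype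
    (chevF4.group K).subtype_injective (Jm chevE6 chevF4 tJE6 K) (fun v hv => Jm_inj tJE6_piv v hv) a
    (fun x : Fin 8 × K => wv1 (good_of_mem hF4d) (wS6 x.1) x.2) ?_ hcl (top_gen6 _) (card_G1_6 E E')
  intro i
  have h1 := inter6 (K := K) i.1 i.2
  rw [← ha i] at h1
  exact h1

end iso

theorem Jm_cancel {F : Type*} [Field F] {M N : Matrix chevF4.Idx chevF4.Idx F}
    (h : Jm chevE6 chevF4 tJE6 F * M = Jm chevE6 chevF4 tJE6 F * N) : M = N := by
  have h1 : ∀ v, M *ᵥ v = N *ᵥ v := by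
    intro v
    have h2 : Jm chevE6 chevF4 tJE6 F *ᵥ (M *ᵥ v - N *ᵥ v) = 0 := by
      rw [Matrix.mulVec_sub, Matrix.mulVec_mulVec, Matrix.mulVec_mulVec, h, sub_self]
    exact sub_eq_zero.1 (Jm_inj tJE6_piv _ h2)
  ext i j
  have h2 := congrFun (h1 (Pi.single j 1)) i
  simpa [Matrix.mulVec_single_one] using h2

theorem evW_one {D : ChevalleyDatum} {F : Type*} [Field F] (w : List (ℕ × ℤ × ℕ × ℕ)) (W : List ℕ)
    (h : w.map (fun x => ((x.1 : ℕ), ((x.2.1 : ℤ) : F))) = W.map fun r => (r, (1 : F))) :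
    evW (1 : F) 1 D w = (W.map fun r => D.x F r 1).prod := by
  have h1 : evW (1 : F) 1 D w = ((w.map (fun x => ((x.1 : ℕ), ((x.2.1 : ℤ) : F)))).map fun y => D.x F y.1 y.2).prod := by
    unfold evW ChevalleyDatum.wordMat
    rw [List.map_map, List.map_map]
    congr 1
    apply List.map_congr_left
    intro x _
    simp
  rw [h1, h, List.map_map]
  rfl

theorem neg_one_two {F : Type*} [Field F] [CharP F 2] : (((-1 : ℤ) : ℤ) : F) = 1 := by
  push_cast
  exact CharTwo.neg_eq 1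

section rels
variable (F : Type*) [Field F] [CharP F 2]

theorem relG1 : ((tG (good_of_mem hE6d) F [71] : GL chevE6.Idx F) : Matrix chevE6.Idx chevE6.Idx F) * Jm chevE6 chevF4 tJE6 F =
    Jm chevE6 chevF4 tJE6 F * ((tG (good_of_mem hF4d) F [47] : GL chevF4.Idx F) : Matrix chevF4.Idx chevF4.Idx F) := by
  rw [tG_coe, tG_coe, ← evW_one [(71, 1, 0, 0)] [71] (by simp), ← evW_one [(47, 1, 0, 0)] [47] (by simp)]
  exact interF_sound tJE6_cst tJE6_len (good_of_mem hE6d).toGood1 (good_of_mem hF4d).toGood1 (by decide) (by decide) rel1 1 1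

theorem relG2 : ((tG (good_of_mem hE6d) F [66, 68] : GL chevE6.Idx F) : Matrix chevE6.Idx chevE6.Idx F) * Jm chevE6 chevF4 tJE6 F =
    Jm chevE6 chevF4 tJE6 F * ((tG (good_of_mem hF4d) F [44] : GL chevF4.Idx F) : Matrix chevF4.Idx chevF4.Idx F) := by
  rw [tG_coe, tG_coe, ← evW_one [(66, 1, 0, 0), (68, 1, 0, 0)] [66, 68] (by simp), ← evW_one [(44, 1, 0, 0)] [44] (by simp)]
  exact interF_sound tJE6_cst tJE6_len (good_of_mem hE6d).toGood1 (good_of_mem hF4d).toGood1 (by decide) (by decide) rel2 1 1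

theorem relG3 : ((tG (good_of_mem hE6d) F [71, 66, 68] : GL chevE6.Idx F) : Matrix chevE6.Idx chevE6.Idx F) * Jm chevE6 chevF4 tJE6 F =
    Jm chevE6 chevF4 tJE6 F * ((tG (good_of_mem hF4d) F [47, 44] : GL chevF4.Idx F) : Matrix chevF4.Idx chevF4.Idx F) := by
  rw [tG_coe, tG_coe, ← evW_one [(71, 1, 0, 0), (66, 1, 0, 0), (68, 1, 0, 0)] [71, 66, 68] (by simp),
    ← evW_one [(47, 1, 0, 0), (44, 1, 0, 0)] [47, 44] (by simp)]
  exact interF_sound tJE6_cst tJE6_len (good_of_mem hE6d).toGood1 (good_of_mem hF4d).toGood1 (by decide) (by decide) rel3 1 1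

theorem relG4 : ((tG (good_of_mem hE6d) F [54, 64, 69] : GL chevE6.Idx F) : Matrix chevE6.Idx chevE6.Idx F) * Jm chevE6 chevF4 tJE6 F =
    Jm chevE6 chevF4 tJE6 F * ((tG (good_of_mem hF4d) F [39, 45] : GL chevF4.Idx F) : Matrix chevF4.Idx chevF4.Idx F) := by
  have h1 := neg_one_two (F := F)
  rw [tG_coe, tG_coe, ← evW_one [(54, -1, 0, 0), (64, 1, 0, 0), (69, 1, 0, 0)] [54, 64, 69]
      (by
        show [(54, (((-1 : ℤ) : ℤ) : F)), (64, ((1 : ℤ) : F)), (69, ((1 : ℤ) : F))] = _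
        rw [h1, Int.cast_one]; rfl),
    ← evW_one [(39, 1, 0, 0), (45, 1, 0, 0)] [39, 45] (by simp)]
  exact interF_sound tJE6_cst tJE6_len (good_of_mem hE6d).toGood1 (good_of_mem hF4d).toGood1 (by decide) (by decide) rel4 1 1

/-- the graph automorphism on root elements in characteristic two -/
theorem sE6_one (φ : F ≃+* F) {r : ℕ} (hr : r < 72) (t : F) :
    sE6 (good_of_mem hE6d) φ (xG (good_of_mem hE6d).toGood2 r t) = xG (good_of_mem hE6d).toGood2 (wv gpE6_1 r) (φ t) := by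
  have h1 := sgm_xG (good_of_mem hE6d) gok_E6_1 piok_E6_1 pj_E6_1 φ (r := r) hr t
  refine h1.trans ?_
  congr 1
  rcases gs_or gpE6_1 r with h | h
  · rw [h, Int.cast_one, one_mul]
  · rw [h, neg_one_two, one_mul]

theorem sE6_tG (φ : F ≃+* F) {W : List ℕ} (hW : ∀ r ∈ W, r < 72) :
    sE6 (good_of_mem hE6d) φ (tG (good_of_mem hE6d) F W) = tG (good_of_mem hE6d) F (W.map (wv gpE6_1)) := by
  induction W with
  | nil => rw [tG_nil, map_one]; rfl
  | cons r W ih =>
    rw [tG_cons, map_mul, sE6_one F φ (hW r List.mem_cons_self), map_one, ih fun s hs => hW s (List.mem_cons_of_mem _ hs)]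
    rfl

end rels

section reps
variable (F : Type*) [Field F] [Fintype F] [CharP F 2] (E : DData chevE6) (E' : DData chevF4)

/-- the representatives -/
def rps : List (List ℕ) := [[71], [66, 68], [71, 66, 68], [54, 64, 69]]

theorem rps_mem {W : List ℕ} (hW : W ∈ rps) : tG (good_of_mem hE6d) F W ∈ (T6' F E E').G1 := by
  rw [← fixed6]
  obtain ⟨w1, w2, w3, w4, w5, w6, -, -⟩ := wvs
  simp only [rps, List.mem_cons, List.not_mem_nil, or_false] at hW
  have key : ∀ {W W' : List ℕ}, (∀ r ∈ W, r < 72) → W.map (wv gpE6_1) = W' → chkWord chevE6 W' W = true →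
      (T6' F E E').σ (tG (good_of_mem hE6d) F W) = tG (good_of_mem hE6d) F W := by
    intro W W' h1 h2 h3
    have h4 := sE6_tG F (RingEquiv.refl F) h1
    rw [h2, tG_chk _ _ h3] at h4
    exact h4
  rcases hW with rfl | rfl | rfl | rfl
  · have h4 := sE6_tG F (RingEquiv.refl F) (W := [71]) (by decide)
    have h5 : ([71] : List ℕ).map (wv gpE6_1) = [71] := by simp [w1]
    rw [h5] at h4
    exact h4
  · exact key (W' := [68, 66]) (by decide) (by simp [w2, w3]) comm_66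
  · exact key (W' := [71, 68, 66]) (by decide) (by simp [w1, w2, w3]) comm_71
  · exact key (W' := [64, 54, 69]) (by decide) (by simp [w4, w5, w6]) comm_54

theorem rps_all {ν : ↥(chevE6.group F)} (hν : ν ∈ (T6' F E E').G1) (hνν : ν * ν = 1) (hν1 : ν ≠ 1) :
    ∃ z ∈ (T6' F E E').G1, ∃ W ∈ rps, z * ν * z⁻¹ = tG (good_of_mem hE6d) F W := by
  obtain ⟨e, he⟩ := iso6e F E E'
  obtain ⟨R⟩ := nonempty_rootFacts (D := chevF4) (by simp)
  have h1 : (e ⟨ν, hν⟩ : GL chevF4.Idx F) * (e ⟨ν, hν⟩ : GL chevF4.Idx F) = 1 := by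
    rw [← Subgroup.coe_mul, ← map_mul]
    have : (⟨ν, hν⟩ : ↥(T6' F E E').G1) * ⟨ν, hν⟩ = 1 := Subtype.ext hνν
    rw [this, map_one, Subgroup.coe_one]
  have h2 : (e ⟨ν, hν⟩ : GL chevF4.Idx F) ≠ 1 := by
    intro h
    apply hν1
    have h3 : e ⟨ν, hν⟩ = 1 := Subtype.ext h
    have h4 := (map_eq_one_iff e e.injective).1 h3
    exact congrArg Subtype.val h4
  obtain ⟨L, hL, g, hg, h3⟩ := exists_rep' (G := good_of_mem hF4d) IvF4.ok_oc IvF4.nodesF IvF4.leafsF IvF4.ok_assoc bookF E' R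
    (e ⟨ν, hν⟩).2 h1 h2
  obtain ⟨W, hW, hWL⟩ : ∃ W ∈ rps, ((tG (good_of_mem hE6d) F W : GL chevE6.Idx F) :
      Matrix chevE6.Idx chevE6.Idx F) * Jm chevE6 chevF4 tJE6 F = Jm chevE6 chevF4 tJE6 F *
        ((tG (good_of_mem hF4d) F L : GL chevF4.Idx F) : Matrix chevF4.Idx chevF4.Idx F) := by
    simp only [IvF4.reps, List.mem_cons, List.not_mem_nil, or_false] at hL
    rcases hL with rfl | rfl | rfl | rfl
    · exact ⟨[71], by simp [rps], relG1 _⟩
    · exact ⟨[66, 68], by simp [rps], relG2 _⟩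
    · exact ⟨[71, 66, 68], by simp [rps], relG3 _⟩
    · exact ⟨[54, 64, 69], by simp [rps], relG4 _⟩
  have hWG := rps_mem F E E' hW
  have h4 : e ⟨tG (good_of_mem hE6d) F W, hWG⟩ = tG (good_of_mem hF4d) F L := by
    apply Subtype.ext
    apply Units.ext
    apply Jm_cancel
    rw [← hWL]
    exact (he ⟨tG (good_of_mem hE6d) F W, hWG⟩).symm
  refine ⟨(e.symm ⟨g, hg⟩ : ↥(T6' F E E').G1), (e.symm ⟨g, hg⟩).2, W, hW, ?_⟩
  have h5 : e.symm ⟨g, hg⟩ * ⟨ν, hν⟩ * (e.symm ⟨g, hg⟩)⁻¹ = ⟨tG (good_of_mem hE6d) F W, hWG⟩ := by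
    apply e.injective
    rw [map_mul, map_mul, map_inv, e.apply_symm_apply, h4]
    apply Subtype.ext
    rw [tG_tL]
    exact h3
  exact congrArg Subtype.val h5

end reps

end Cfsg.Agent.ChevF
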