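import Cfsg.Agent.ChevF.InvTE6c

set_option autoImplicit false
set_option maxRecDepth 100000

/-!
Involutions of the twisted groups of type E6 in characteristic two: the count.
-/

namespace Cfsg.Agent.ChevF

open Cfsg.Lie Cfsg.Agent.Chev Cfsg.Agent.ChevGrp Cfsg.Agent.ChevWeyl Cfsg.Agent.ChevTw Cfsg.Agent.ChevU Matrix

/-- elements of trace one -/
theorem exists_tr_one {K : Type*} [Field K] [Fintype K] [CharP K 2] {q : ℕ} (hq : 1 < q) (hK : Fintype.card K = q ^ 2)
    (φ : K ≃+* K) (hφφ : ∀ x, φ (φ x) = x) (hφ : ∀ t, φ t = t ^ q) : ∃ u : K, u + φ u = 1 := by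
  let τ : K →+ K := AddMonoidHom.id K + (φ : K →+* K).toAddMonoidHom
  have hτ : ∀ u, τ u = u + φ u := fun u => rfl
  have h1 : Nat.card τ.ker = q := by
    rw [← card_fixed hq (two_ne_zero) hK]
    apply Nat.card_congr
    refine Equiv.subtypeEquivRight fun x => ?_
    show x + φ x = 0 ↔ x ^ q = x
    rw [← hφ, CharTwo.add_eq_zero]
    exact eq_comm
  have h2 : Nat.card τ.range * q = q ^ 2 := by
    have h7 := AddSubgroup.card_eq_card_quotient_mul_card_addSubgroup τ.ker
    rw [h1, Nat.card_eq_fintype_card, hK] at h7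
    rw [h7]
    congr 1
    exact Nat.card_congr (QuotientAddGroup.quotientKerEquivRange τ).symm.toEquiv
  have h3 : Nat.card τ.range = q := by
    have : Nat.card τ.range * q = q * q := by rw [h2]; ring
    exact Nat.eq_of_mul_eq_mul_right (by omega) this
  have h4 : τ.range ≤ τ.ker := by
    rintro _ ⟨u, rfl⟩
    show (u + φ u) + φ (u + φ u) = 0
    rw [map_add, hφφ, CharTwo.add_eq_zero]
    ring
  have h5 : τ.range = τ.ker := AddSubgroup.eq_of_le_of_card_ge h4 (by rw [h1, h3])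
  have h6 : (1 : K) ∈ τ.range := by
    rw [h5]
    show (1 : K) + φ 1 = 0
    rw [map_one]
    exact CharTwo.add_self_eq_zero 1
  exact h6

section main

variable {K : Type*} [Field K] [Fintype K] [CharP K 2] (E : DData chevE6) (E' : DData chevF4)
  (φ : K ≃+* K) (hφφ : ∀ x, φ (φ x) = x) {q : ℕ} (hφ : ∀ t, φ t = t ^ q)

theorem b_mem (u : K) : xG (good_of_mem hE6d).toGood2 48 u * xG (good_of_mem hE6d).toGood2 50 (φ u) ∈ (T6q K E E' φ hφφ hφ).G1 := by
  obtain ⟨-, -, -, -, -, -, w1, w2⟩ := wvs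
  have m1 : xG (good_of_mem hE6d).toGood2 48 u ∈ (I6 K E).R.X (⟨48, by decide⟩ : Fin chevE6.nroots) :=
    ((I6 K E).mem_X (⟨48, by decide⟩ : Fin chevE6.nroots) _).2 ⟨u, rfl⟩
  have m2 : xG (good_of_mem hE6d).toGood2 50 (φ u) ∈ (I6 K E).R.X (⟨50, by decide⟩ : Fin chevE6.nroots) :=
    ((I6 K E).mem_X (⟨50, by decide⟩ : Fin chevE6.nroots) _).2 ⟨φ u, rfl⟩
  have c1 : clsE6 (⟨50, by decide⟩ : Fin chevE6.nroots) = clsE6 ⟨48, by decide⟩ := Fin.ext cls48.symm
  have h1 : xG (good_of_mem hE6d).toGood2 48 u * xG (good_of_mem hE6d).toGood2 50 (φ u) ∈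
      gen (I6 K E).R.X (fun r => clsE6 r = clsE6 (⟨48, by decide⟩ : Fin chevE6.nroots)) :=
    mul_mem (mem_gen (X := (I6 K E).R.X) (P := fun r => clsE6 r = clsE6 (⟨48, by decide⟩ : Fin chevE6.nroots)) rfl m1)
      (mem_gen (X := (I6 K E).R.X) (P := fun r => clsE6 r = clsE6 (⟨48, by decide⟩ : Fin chevE6.nroots)) c1 m2)
  refine TwData.X'_le_G1 (clsE6 ⟨48, by decide⟩) ((TwData.mem_X' _).2 ⟨h1, ?_⟩)
  · show sE6 (good_of_mem hE6d) φ _ = _
    rw [map_mul, sE6_one K φ (by decide), sE6_one K φ (by decide), w1, w2, hφφ]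
    exact xG_comm (good_of_mem hE6d) (D := chevE6) (r := 50) (s := 48) (by decide) (by decide) (by decide) (by decide) (by decide +kernel) _ _

theorem fuse (hq : 1 < q) (hK : Fintype.card K = q ^ 2) : ∃ b ∈ (T6q K E E' φ hφφ hφ).G1,
    b * tG (good_of_mem hE6d) K [66, 68] * b⁻¹ = tG (good_of_mem hE6d) K [71, 66, 68] := by
  obtain ⟨u, hu⟩ := exists_tr_one hq hK φ hφφ hφ
  refine ⟨_, b_mem E E' φ hφφ hφ u, ?_⟩
  have h1 := eqW_sound u (φ u) (good_of_mem hE6d).toGood1.engOK (D := chevE6) (F := K) (by decide) (by decide) conjword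
  rw [mul_inv_eq_iff_eq_mul]
  apply Subtype.ext
  apply Units.ext
  have h2 : xG (good_of_mem hE6d).toGood2 71 (1 : K) = xG (good_of_mem hE6d).toGood2 71 u * xG (good_of_mem hE6d).toGood2 71 (φ u) := by
    rw [← xG_add _ (show 71 < chevE6.nroots by decide), hu]
  rw [tG_cons _ _ 71, h2]
  simp only [Subgroup.coe_mul, Units.val_mul, xG_coe, tG_coe, List.map_cons, List.map_nil, List.prod_cons, List.prod_nil, mul_one]
  simp only [evW, ChevalleyDatum.wordMat, List.map_cons, List.map_nil, List.prod_cons, List.prod_nil, Int.cast_one, pow_one, pow_zero, mul_one, one_mul] at h1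
  simp only [Matrix.mul_assoc] at h1 ⊢
  exact h1

/-- every involution is conjugate to one of three representatives -/
theorem three6 (hq : 1 < q) (hK : Fintype.card K = q ^ 2) {t : ↥(chevE6.group K)}
    (ht : t ∈ (T6q K E E' φ hφφ hφ).G1) (htt : t * t = 1) (ht1 : t ≠ 1) :
    ∃ y ∈ (T6q K E E' φ hφφ hφ).G1, ∃ W ∈ ([[71], [66, 68], [54, 64, 69]] : List (List ℕ)),
      y * t * y⁻¹ = tG (good_of_mem hE6d) K W := by
  obtain ⟨y, hy, ν, hν, h1, h2, h3⟩ := exists_red E E' φ hφφ hφ ht htt ht1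
  obtain ⟨z, hz, W, hW, h4⟩ := rps_all (ZMod 2) E E' hν h1 h2
  obtain ⟨z', hz', W', hW', h5⟩ : ∃ z' ∈ (T6q K E E' φ hφφ hφ).G1, ∃ W' ∈ ([[71], [66, 68], [54, 64, 69]] : List (List ℕ)),
      z' * tG (good_of_mem hE6d) K W * z'⁻¹ = tG (good_of_mem hE6d) K W' := by
    simp only [rps, List.mem_cons, List.not_mem_nil, or_false] at hW
    rcases hW with rfl | rfl | rfl | rfl
    · exact ⟨1, one_mem _, [71], by simp, by group⟩
    · exact ⟨1, one_mem _, [66, 68], by simp, by group⟩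
    · obtain ⟨b, hb, h⟩ := fuse E E' φ hφφ hφ hq hK
      refine ⟨b⁻¹, inv_mem hb, [66, 68], by simp, ?_⟩
      rw [← h]; group
    · exact ⟨1, one_mem _, [54, 64, 69], by simp, by group⟩
  have h6 := congrArg (fHom chevE6 (cst2 K)) h4
  rw [map_mul, map_mul, map_inv, ← h3, tG_map] at h6
  refine ⟨z' * fHom chevE6 (cst2 K) z * y, mul_mem (mul_mem hz' (iota_G1 E E' φ hφφ hφ hz)) hy, W', hW', ?_⟩
  rw [← h5, ← h6]; group

end main

/-- counting classes by representatives -/
theorem ncard_of_reps {A : Type*} [Group A] {m : ℕ} (r : Fin m → A) (inv : A → ℕ) (hc : ∀ g a : A, inv (g * a * g⁻¹) = inv a)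
    (h2 : ∀ i, orderOf (r i) = 2) (hinj : Function.Injective fun i => inv (r i))
    (hall : ∀ t : A, orderOf t = 2 → ∃ i, ∃ y : A, y * t * y⁻¹ = r i) :
    (ConjClasses.mk '' {g : A | orderOf g = 2}).ncard = m := by
  have h1 : ConjClasses.mk '' {g : A | orderOf g = 2} = Set.range fun i => ConjClasses.mk (r i) := by
    ext c
    constructor
    · rintro ⟨g, hg, rfl⟩
      obtain ⟨i, y, h⟩ := hall g hg
      refine ⟨i, ?_⟩
      symm
      rw [ConjClasses.mk_eq_mk_iff_isConj, isConj_iff]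
      exact ⟨y, h⟩
    · rintro ⟨i, rfl⟩
      exact ⟨r i, h2 i, rfl⟩
  have h3 : Function.Injective fun i => ConjClasses.mk (r i) := by
    intro i j h
    apply hinj
    have h4 : ConjClasses.mk (r i) = ConjClasses.mk (r j) := h
    rw [ConjClasses.mk_eq_mk_iff_isConj, isConj_iff] at h4
    obtain ⟨c, hc'⟩ := h4
    show inv (r i) = inv (r j)
    rw [← hc', hc]
  rw [h1, ← Set.image_univ, Set.ncard_image_of_injective _ h3, Set.ncard_univ, Nat.card_eq_fintype_card, Fintype.card_fin]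

/-- the three representatives -/
def rp3 : Fin 3 → List ℕ := ![[71], [66, 68], [54, 64, 69]]
/-- the three ranks -/
def rk3 : Fin 3 → ℕ := ![22, 32, 38]

theorem rank_rp3 {K : Type*} [Field K] [Fintype K] [CharP K 2] (E : DData chevE6) (i : Fin 3) :
    (((tG (good_of_mem hE6d) K (rp3 i) : GL chevE6.Idx K) : Matrix chevE6.Idx chevE6.Idx K) - 1).rank = rk3 i := by
  obtain ⟨R⟩ := nonempty_rootFacts (D := chevE6) (by simp)
  have hC := IvE6.classes K (good_of_mem hE6d) E R
  have e1 := hC.rank [71] (by simp [IvE6.reps])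
  have e2 := hC.rank [68, 66] (by simp [IvE6.reps])
  have e3 := hC.rank [55, 65, 67] (by simp [IvE6.reps])
  have r1 : IvE6.rk [71] = 22 := by decide
  have r2 : IvE6.rk [68, 66] = 32 := by decide
  have r3 : IvE6.rk [55, 65, 67] = 38 := by decide
  rw [r1, ← tG_coe (good_of_mem hE6d)] at e1
  rw [r2, ← tG_coe (good_of_mem hE6d), tG_chk _ _ comm_66] at e2
  rw [r3, ← tG_coe (good_of_mem hE6d)] at e3
  have h4 := rank_conj (eqv_of_assoc (F := K) (good_of_mem hE6d) assocE)
  rw [← tG_tL, ← tG_tL] at h4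
  have hi := (by decide : ∀ i : Fin 3, i = 0 ∨ i = 1 ∨ i = 2) i
  rcases hi with rfl | rfl | rfl
  · exact e1
  · exact e2
  · exact h4.trans e3

theorem order_rp3 {K : Type*} [Field K] [Fintype K] [CharP K 2] (E : DData chevE6) (i : Fin 3) :
    orderOf (tG (good_of_mem hE6d) K (rp3 i)) = 2 := by
  have hr := rank_rp3 (K := K) E i
  have h1 : ∀ {W W' : List ℕ}, chkWord chevE6 (W ++ W) [] = true → tG (good_of_mem hE6d) K W ^ 2 = 1 := by
    intro W _ h
    have h2 := tG_chk (good_of_mem hE6d) K h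
    have h3 : tG (good_of_mem hE6d) K (W ++ W) = tG (good_of_mem hE6d) K W * tG (good_of_mem hE6d) K W := by
      unfold tG
      rw [List.map_append, List.prod_append]
    rw [pow_two, ← h3, h2]; rfl
  have h2 : tG (good_of_mem hE6d) K (rp3 i) ≠ 1 := by
    intro h
    rw [h] at hr
    have h3 : (((1 : ↥(chevE6.group K)) : GL chevE6.Idx K) : Matrix chevE6.Idx chevE6.Idx K) - 1 = 0 := by
      rw [Subgroup.coe_one, Units.val_one, sub_self]
    rw [h3, Matrix.rank_zero] at hr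
    have hi := (by decide : ∀ i : Fin 3, rk3 i ≠ 0) i
    exact hi hr.symm
  refine orderOf_eq_prime ?_ h2
  have hi := (by decide : ∀ i : Fin 3, i = 0 ∨ i = 1 ∨ i = 2) i
  rcases hi with rfl | rfl | rfl
  · exact h1 (W' := []) (by decide +kernel)
  · exact h1 (W' := []) (by decide +kernel)
  · exact h1 (W' := []) (by decide +kernel)

theorem involutions_twE6 {K : Type*} [Field K] [Fintype K] [CharP K 2] (q : ℕ) (hK : Fintype.card K = q ^ 2) :
    (ConjClasses.mk '' {g : ↥(twistedE6 K q) | orderOf g = 2}).ncard = 3 := by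
  obtain ⟨E⟩ := DData.nonempty_of_mem (D := chevE6) (by simp [types7])
  obtain ⟨E'⟩ := DData.nonempty_of_mem (D := chevF4) (by simp [types7])
  have hqp : IsPrimePow q := by
    have h1 : IsPrimePow (q ^ 2) := by rw [← hK]; exact FiniteField.isPrimePow_card K
    exact (isPrimePow_pow_iff two_ne_zero).1 h1
  obtain ⟨φ, hφ⟩ := exists_frob hqp two_ne_zero hK
  have hφφ : ∀ x, φ (φ x) = x := by
    intro x
    rw [hφ, hφ, ← pow_mul, ← pow_two, ← hK, FiniteField.pow_card]
  have hle : twistedE6 K q ≤ chevE6.group K := genSub_le (good_of_mem hE6d).toGood2 _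
  have hmem : ∀ x : ↥(chevE6.group K), x ∈ (T6q K E E' φ hφφ hφ).G1 ↔ (x : GL chevE6.Idx K) ∈ twistedE6 K q := fun x => Iff.rfl
  have hrep : ∀ i, (tG (good_of_mem hE6d) K (rp3 i) : GL chevE6.Idx K) ∈ twistedE6 K q := by
    intro i
    rw [← hmem, ← tG_map (good_of_mem hE6d) (ZMod 2) (cst2 K)]
    apply iota_G1
    apply rps_mem
    have hi := (by decide : ∀ i : Fin 3, i = 0 ∨ i = 1 ∨ i = 2) i
    rcases hi with rfl | rfl | rfl <;> simp [rps, rp3]
  refine ncard_of_reps (fun i => (⟨_, hrep i⟩ : ↥(twistedE6 K q)))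
    (fun a => (((a : GL chevE6.Idx K) : Matrix chevE6.Idx chevE6.Idx K) - 1).rank) ?_ ?_ ?_ ?_
  · intro g a
    exact rank_conj ⟨g, hle g.2, rfl⟩
  · intro i
    rw [← Subgroup.orderOf_coe]
    show orderOf (tG (good_of_mem hE6d) K (rp3 i) : GL chevE6.Idx K) = 2
    rw [Subgroup.orderOf_coe]
    exact order_rp3 E i
  · intro i j h
    have h1 := rank_rp3 (K := K) E i
    have h2 := rank_rp3 (K := K) E j
    have h3 : rk3 i = rk3 j := by rw [← h1, ← h2]; exact h
    exact (by decide : ∀ i j : Fin 3, rk3 i = rk3 j → i = j) i j h3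
  · intro t ht
    have ht2 : t ^ 2 = 1 := by rw [← ht]; exact pow_orderOf_eq_one t
    have ht1 : t ≠ 1 := by intro h; rw [h, orderOf_one] at ht; omega
    obtain ⟨y, hy, W, hW, h⟩ := three6 E E' φ hφφ hφ hqp.one_lt hK (t := ⟨t, hle t.2⟩) t.2
      (Subtype.ext (by
        have := congrArg Subtype.val ht2
        rw [pow_two] at this
        exact this)) (fun h => by
        have h' := congrArg (Subtype.val : ↥(chevE6.group K) → GL chevE6.Idx K) h
        exact ht1 (Subtype.ext h'))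
    obtain ⟨i, rfl⟩ : ∃ i, rp3 i = W := by
      simp only [List.mem_cons, List.not_mem_nil, or_false] at hW
      rcases hW with rfl | rfl | rfl
      · exact ⟨0, rfl⟩
      · exact ⟨1, rfl⟩
      · exact ⟨2, rfl⟩
    have h' := congrArg (Subtype.val : ↥(chevE6.group K) → GL chevE6.Idx K) h
    exact ⟨i, ⟨y, hy⟩, Subtype.ext h'⟩

end Cfsg.Agent.ChevF
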