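import Cfsg.Agent.ChevF.InvTw
import Cfsg.Agent.Tw4.Rows
import Cfsg.Agent.Tw4.Tits
import Cfsg.Agent.ChevU.CentCls

set_option autoImplicit false
set_option maxRecDepth 100000

/-!
Involutions of the twisted groups of type F4.
-/

namespace Cfsg.Agent.ChevF

open Cfsg.Lie Cfsg.Agent.Chev Cfsg.Agent.ChevGrp Cfsg.Agent.ChevWeyl Cfsg.Agent.ChevTw Cfsg.Agent.ChevU Cfsg.Agent.Tw4 Matrix

section abs
variable {l n : ℕ} {S : WSys l n} {G : Type*} [Group G] {R : RGrp S G}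

/-- involutions are conjugate to chosen representatives of the involutions of the Weyl group -/
theorem exists_conj_rep {t : G} (ht : t ∈ R.Grp) (htt : t * t = 1) {k : ℕ} (hk : ∀ h ∈ R.H, h ^ k * h ^ k = h)
    (P : G → Prop) (hP : ∀ w ∈ S.W, w * w = 1 → ∃ ν ∈ R.N, R.Act ν w ∧ ν * ν = 1 ∧ P ν) :
    ∃ y ∈ R.Grp, P (y * t * y⁻¹) := by
  obtain ⟨y, hy, m, w, h1, h2, h3, h4, h5, -⟩ := exists_conj_monomial (Tw.one R) (t := t) (by
    rw [inv_one, mul_one]; exact ht) htt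
  rw [inv_one, mul_one] at h2
  obtain ⟨ν, hν, h6, h7, h8⟩ := hP w h3.1 h5
  obtain ⟨h, hh, h9⟩ := conj_of_act h2 h3 h4 hν h6 h7 hk
  refine ⟨h * y⁻¹, mul_mem ((R.H_le_B.trans R.B_le_Grp) hh) (inv_mem hy), ?_⟩
  have : h * y⁻¹ * t * (h * y⁻¹)⁻¹ = ν := by rw [← h9, ← h1]; group
  rw [this]; exact h8

end abs

variable {K : Type*} [Field K]

theorem wF_chk [CharP K 2] {l m : List ℕ} (h : chkWord chevF4 l m = true) : (wF l : ↥(chevF4.group K)) = wF m := by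
  have hc : ∀ W : List ℕ, (((wF W : ↥(chevF4.group K)) : GL chevF4.Idx K) : Matrix chevF4.Idx chevF4.Idx K) =
      (W.map fun r => chevF4.x K r 1).prod := by
    intro W
    induction W with
    | nil => rfl
    | cons r W ih =>
      rw [wF_cons, Subgroup.coe_mul, Units.val_mul, ih, xG_coe]; rfl
  apply Subtype.ext
  apply Units.ext
  rw [hc, hc]
  exact eq_of_chkWord h

/-- words -/
def nw0 : List ℕ := [33, 24, 14, 23, 33, 24]
/-- words -/
def nw1 : List ℕ := [28, 30, 19, 17, 28, 30, 19, 17, 28, 30]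

theorem chk_n0 : chkWord chevF4 (nw0 ++ nw0) [] = true := by decide +kernel
theorem chk_n1 : chkWord chevF4 (nw1 ++ nw1) [] = true := by decide +kernel
theorem chk_w0 : chkWord chevF4 ((nw0 ++ (nw1 ++ (nw0 ++ (nw1 ++ (nw0 ++ (nw1 ++ (nw0 ++ nw1))))))) ++
  (nw0 ++ (nw1 ++ (nw0 ++ (nw1 ++ (nw0 ++ (nw1 ++ (nw0 ++ nw1)))))))) [] = true := by decide +kernel
theorem chk_c0 : chkWord chevF4 ((nw1 ++ (nw0 ++ (nw1 ++ [14, 23]))) ++ nw0) ([39, 45] ++ (nw1 ++ (nw0 ++ (nw1 ++ [14, 23])))) = true := by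
  decide +kernel
theorem chk_c1 : chkWord chevF4 ((nw0 ++ (nw1 ++ (nw0 ++ ([19, 17] ++ [28, 30])))) ++ nw1)
    ([47, 44] ++ (nw0 ++ (nw1 ++ (nw0 ++ ([19, 17] ++ [28, 30]))))) = true := by
  decide +kernel
theorem chk_c2 : chkWord chevF4 ((nw1 ++ (nw0 ++ (nw1 ++ (nw0 ++ (nw1 ++ (nw0 ++ (gW 2 ++ (gW 7 ++ (nw1 ++ (nw0 ++ (gW 7 ++ gW 0))))))))))) ++
    (nw0 ++ (nw1 ++ (nw0 ++ (nw1 ++ (nw0 ++ (nw1 ++ (nw0 ++ nw1)))))))) ([39, 45] ++ (nw1 ++ (nw0 ++ (nw1 ++ (nw0 ++ (nw1 ++ (nw0 ++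
    (gW 2 ++ (gW 7 ++ (nw1 ++ (nw0 ++ (gW 7 ++ gW 0)))))))))))) = true := by
  decide +kernel
theorem chk_c3 : chkWord chevF4 (gW 3 ++ gW 4) (gW 4 ++ gW 3) = true := by decide +kernel
theorem chk_c4 : chkWord chevF4 (gW 3 ++ gW 3) [47, 44] = true := by decide +kernel
theorem chk_a : chkWord chevF4 ([39, 45] ++ [39, 45]) [] = true := by decide +kernel
theorem chk_b : chkWord chevF4 ([47, 44] ++ [47, 44]) [] = true := by decide +kernel

variable (Z : Sg K)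

include Z in
theorem nd0_wF : (RF K).nd (LF 0) = wF nw0 := by
  rw [nd0_eq Z]
  unfold eP eN
  rw [map_one]
  simp only [nw0, wF_cons, wF_nil, mul_one, mul_assoc]

include Z in
theorem nd1_wF : (RF K).nd (LF 1) = wF nw1 := by
  rw [nd1_eq Z]
  have h4 : fP Z 0 1 = xF 28 1 * xF 30 1 := by
    unfold fP Quad.Fx
    rw [Quad.W_def, map_zero, map_one, zero_mul, zero_add, one_pow, xF_zero, xF_zero, one_mul, one_mul]
  have h5 : fN Z 0 1 = xF 19 1 * xF 17 1 := by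
    unfold fN Quad.Fx
    rw [Quad.W_def, map_zero, map_one, zero_mul, zero_add, one_pow, xF_zero, xF_zero, one_mul, one_mul]
  rw [h4, h5]
  simp only [nw1, wF_cons, wF_nil, mul_one, mul_assoc]

theorem g8_G1 {k : ℕ} (hk : k < 8) : (g8 k : ↥(chevF4.group K)) ∈ (twF Z).G1 := by
  have m0 := nd_G1 Z 0
  have m1 := nd_G1 Z 1
  have h0 : (g8 0 : ↥(chevF4.group K)) ∈ (twF Z).G1 := by rw [g8_0 Z]; exact eP_G1 Z 1
  have h7 : (g8 7 : ↥(chevF4.group K)) ∈ (twF Z).G1 := by rw [g8_7 Z]; exact fP_G1 Z 1 0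
  have c0 : ∀ {k : ℕ}, 0 < k → k < 8 → (g8 k : ↥(chevF4.group K)) ∈ (twF Z).G1 → (g8 (8 - k) : ↥(chevF4.group K)) ∈ (twF Z).G1 := by
    intro k h1 h2 h3
    rw [← nd0_g8 Z h1 h2]
    exact mul_mem (mul_mem m0 h3) (inv_mem m0)
  have c1 : ∀ {k : ℕ}, k < 7 → (g8 k : ↥(chevF4.group K)) ∈ (twF Z).G1 → (g8 (6 - k) : ↥(chevF4.group K)) ∈ (twF Z).G1 := by
    intro k h1 h3
    rw [← nd1_g8 Z h1]
    exact mul_mem (mul_mem m1 h3) (inv_mem m1)
  have h6 := c1 (k := 0) (by norm_num) h0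
  have h2 := c0 (k := 6) (by norm_num) (by norm_num) h6
  have h4 := c1 (k := 2) (by norm_num) h2
  have h1 := c0 (k := 7) (by norm_num) (by norm_num) h7
  have h5 := c1 (k := 1) (by norm_num) h1
  have h3 := c0 (k := 5) (by norm_num) (by norm_num) h5
  interval_cases k
  · exact h0
  · exact h1
  · exact h2
  · exact h3
  · exact h4
  · exact h5
  · exact h6
  · exact h7

/-- the first representative -/
theorem a_G1 : (wF [39, 45] : ↥(chevF4.group K)) ∈ (twF Z).G1 := g8_G1 Z (k := 4) (by norm_num)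

theorem b_G1 [CharP K 2] : (wF [47, 44] : ↥(chevF4.group K)) ∈ (twF Z).G1 := by
  rw [← wF_chk chk_c4, wF_append]
  exact mul_mem (g8_G1 Z (k := 3) (by norm_num)) (g8_G1 Z (k := 3) (by norm_num))

theorem invol16 : ∀ k : Fin 16, el16 k * el16 k = 1 → k = 0 ∨ k = 1 ∨ k = 2 ∨ k = 5 ∨ k = 6 ∨ k = 9 ∨ k = 10 ∨ k = 13 ∨
    k = 14 ∨ k = 15 := by decide +kernel

/-- conjugate to one of the representatives -/
def PR (Z : Sg K) (x : ↥(chevF4.group K)) : Prop := x = 1 ∨ ∃ y ∈ (twF Z).G1, y * x * y⁻¹ = wF [39, 45] ∨ y * x * y⁻¹ = wF [47, 44]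

theorem PR.conj {x z : ↥(chevF4.group K)} (h : PR Z x) (hz : z ∈ (twF Z).G1) : PR Z (z * x * z⁻¹) := by
  rcases h with rfl | ⟨y, hy, h⟩
  · left; group
  · right
    refine ⟨y * z⁻¹, mul_mem hy (inv_mem hz), ?_⟩
    have e : y * z⁻¹ * (z * x * z⁻¹) * (y * z⁻¹)⁻¹ = y * x * y⁻¹ := by group
    rw [e]; exact h

theorem PR_n0 [CharP K 2] : PR Z (wF nw0) := by
  right
  have m0 : (wF nw0 : ↥(chevF4.group K)) ∈ (twF Z).G1 := by rw [← nd0_wF Z]; exact nd_G1 Z 0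
  have m1 : (wF nw1 : ↥(chevF4.group K)) ∈ (twF Z).G1 := by rw [← nd1_wF Z]; exact nd_G1 Z 1
  have h2 : (wF [14, 23] : ↥(chevF4.group K)) ∈ (twF Z).G1 := by
    have := eN_G1 Z 1
    unfold eN at this
    rw [map_one] at this
    simpa using this
  refine ⟨wF (nw1 ++ (nw0 ++ (nw1 ++ [14, 23]))), ?_, Or.inl ?_⟩
  · rw [wF_append, wF_append, wF_append]
    exact mul_mem m1 (mul_mem m0 (mul_mem m1 h2))
  · rw [mul_inv_eq_iff_eq_mul, ← wF_append, ← wF_append]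
    exact wF_chk chk_c0

theorem PR_n1 [CharP K 2] : PR Z (wF nw1) := by
  right
  have m0 : (wF nw0 : ↥(chevF4.group K)) ∈ (twF Z).G1 := by rw [← nd0_wF Z]; exact nd_G1 Z 0
  have m1 : (wF nw1 : ↥(chevF4.group K)) ∈ (twF Z).G1 := by rw [← nd1_wF Z]; exact nd_G1 Z 1
  have h4 : fP Z 0 1 = xF 28 1 * xF 30 1 := by
    unfold fP Quad.Fx
    rw [Quad.W_def, map_zero, map_one, zero_mul, zero_add, one_pow, xF_zero, xF_zero, one_mul, one_mul]
  have h5 : fN Z 0 1 = xF 19 1 * xF 17 1 := by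
    unfold fN Quad.Fx
    rw [Quad.W_def, map_zero, map_one, zero_mul, zero_add, one_pow, xF_zero, xF_zero, one_mul, one_mul]
  have h2 : (wF [19, 17] : ↥(chevF4.group K)) ∈ (twF Z).G1 := by
    have := fN_G1 Z 0 1
    rw [h5] at this
    simpa using this
  have h3 : (wF [28, 30] : ↥(chevF4.group K)) ∈ (twF Z).G1 := by
    have := fP_G1 Z 0 1
    rw [h4] at this
    simpa using this
  refine ⟨wF (nw0 ++ (nw1 ++ (nw0 ++ ([19, 17] ++ [28, 30])))), ?_, Or.inr ?_⟩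
  · rw [wF_append, wF_append, wF_append, wF_append]
    exact mul_mem m0 (mul_mem m1 (mul_mem m0 (mul_mem h2 h3)))
  · rw [mul_inv_eq_iff_eq_mul, ← wF_append, ← wF_append]
    exact wF_chk chk_c1

theorem PR_w0 [CharP K 2] : PR Z (wF (nw0 ++ (nw1 ++ (nw0 ++ (nw1 ++ (nw0 ++ (nw1 ++ (nw0 ++ nw1)))))))) := by
  right
  have m0 : (wF nw0 : ↥(chevF4.group K)) ∈ (twF Z).G1 := by rw [← nd0_wF Z]; exact nd_G1 Z 0
  have m1 : (wF nw1 : ↥(chevF4.group K)) ∈ (twF Z).G1 := by rw [← nd1_wF Z]; exact nd_G1 Z 1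
  have g : ∀ k < 8, (wF (gW k) : ↥(chevF4.group K)) ∈ (twF Z).G1 := fun k hk => g8_G1 Z hk
  refine ⟨wF (nw1 ++ (nw0 ++ (nw1 ++ (nw0 ++ (nw1 ++ (nw0 ++ (gW 2 ++ (gW 7 ++ (nw1 ++ (nw0 ++ (gW 7 ++ gW 0))))))))))), ?_, Or.inl ?_⟩
  · simp only [wF_append]
    exact mul_mem m1 (mul_mem m0 (mul_mem m1 (mul_mem m0 (mul_mem m1 (mul_mem m0 (mul_mem (g 2 (by norm_num))
      (mul_mem (g 7 (by norm_num)) (mul_mem m1 (mul_mem m0 (mul_mem (g 7 (by norm_num)) (g 0 (by norm_num))))))))))))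
  · rw [mul_inv_eq_iff_eq_mul, ← wF_append, ← wF_append]
    exact wF_chk chk_c2

/-- every involution is conjugate to one of the two representatives -/
theorem PR_all [Fintype K] {t : ↥(chevF4.group K)} (ht : t ∈ (twF Z).G1) (htt : t * t = 1) (ht1 : t ≠ 1) :
    ∃ y ∈ (twF Z).G1, y * t * y⁻¹ = wF [39, 45] ∨ y * t * y⁻¹ = wF [47, 44] := by
  have : CharP K 2 := CharTwo.of_one_ne_zero_of_two_eq_zero one_ne_zero Z.two
  obtain ⟨R⟩ := nonempty_rootFacts (D := chevF4) (by simp)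
  obtain ⟨k, hk⟩ : ∃ k, Fintype.card K - 1 + 1 = 2 * k := by
    obtain ⟨n, hp, hn⟩ := FiniteField.card K 2
    obtain ⟨m, hm⟩ := Nat.exists_eq_succ_of_ne_zero n.ne_zero
    refine ⟨2 ^ m, ?_⟩
    have h1 : Fintype.card K = 2 * 2 ^ m := by rw [hn, hm, pow_succ']
    have := Fintype.card_pos (α := K)
    omega
  have m0 : (wF nw0 : ↥(chevF4.group K)) ∈ (twF Z).G1 := by rw [← nd0_wF Z]; exact nd_G1 Z 0
  have m1 : (wF nw1 : ↥(chevF4.group K)) ∈ (twF Z).G1 := by rw [← nd1_wF Z]; exact nd_G1 Z 1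
  obtain ⟨a, ha⟩ : ∃ a : ↥(chevF4.group K), a = wF nw0 := ⟨_, rfl⟩
  obtain ⟨b, hb⟩ : ∃ b : ↥(chevF4.group K), b = wF nw1 := ⟨_, rfl⟩
  rw [← ha] at m0
  rw [← hb] at m1
  have haa : a * a = 1 := by rw [ha, ← wF_append, wF_chk chk_n0, wF_nil]
  have hbb : b * b = 1 := by rw [hb, ← wF_append, wF_chk chk_n1, wF_nil]
  have hai : a⁻¹ = a := inv_eq_of_mul_eq_one_left haa
  have hbi : b⁻¹ = b := inv_eq_of_mul_eq_one_left hbb
  have pa : PR Z a := by rw [ha]; exact PR_n0 Z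
  have pb : PR Z b := by rw [hb]; exact PR_n1 Z
  have pw : PR Z (a * (b * (a * (b * (a * (b * (a * b))))))) := by
    have := PR_w0 Z
    simp only [wF_append] at this
    rw [ha, hb]; exact this
  have hww : (a * (b * (a * (b * (a * (b * (a * b))))))) * (a * (b * (a * (b * (a * (b * (a * b))))))) = 1 := by
    have := wF_chk (K := K) chk_w0
    rw [wF_nil, wF_append] at this
    simp only [wF_append] at this
    rw [ha, hb]; exact this
  have na : (twF Z).tw.nn 0 = a := by rw [ha, ← nd0_wF Z]; rfl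
  have nb : (twF Z).tw.nn 1 = b := by rw [hb, ← nd1_wF Z]; rfl
  have e1 : ∀ x y : ↥(chevF4.group K), x * x = 1 → y * y = 1 → (x * (y * (x * 1))) * (x * (y * (x * 1))) = 1 ∧
      x * (y * (x * 1)) = x * y * x⁻¹ := by
    intro x y hx hy
    have hxi : x⁻¹ = x := inv_eq_of_mul_eq_one_left hx
    have h1 : x * (y * (x * 1)) = x * y * x⁻¹ := by rw [hxi, mul_one, mul_assoc]
    refine ⟨?_, h1⟩
    rw [h1]
    have : x * y * x⁻¹ * (x * y * x⁻¹) = x * (y * y) * x⁻¹ := by group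
    rw [this, hy]; group
  have e2 : ∀ x y : ↥(chevF4.group K), x * x = 1 → y * y = 1 → (x * (y * (x * (y * (x * 1))))) * (x * (y * (x * (y * (x * 1))))) = 1 ∧
      x * (y * (x * (y * (x * 1)))) = (x * y) * x * (x * y)⁻¹ := by
    intro x y hx hy
    have hxi : x⁻¹ = x := inv_eq_of_mul_eq_one_left hx
    have hyi : y⁻¹ = y := inv_eq_of_mul_eq_one_left hy
    have h1 : x * (y * (x * (y * (x * 1)))) = (x * y) * x * (x * y)⁻¹ := by
      rw [_root_.mul_inv_rev, hxi, hyi, mul_one]; simp only [mul_assoc]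
    refine ⟨?_, h1⟩
    rw [h1]
    have : x * y * x * (x * y)⁻¹ * (x * y * x * (x * y)⁻¹) = (x * y) * (x * x) * (x * y)⁻¹ := by group
    rw [this, hx]; group
  have e3 : ∀ x y : ↥(chevF4.group K), x * x = 1 → y * y = 1 → (x * (y * (x * (y * (x * (y * (x * 1))))))) *
      (x * (y * (x * (y * (x * (y * (x * 1))))))) = 1 ∧
      x * (y * (x * (y * (x * (y * (x * 1)))))) = (x * y * x) * y * (x * y * x)⁻¹ := by
    intro x y hx hy
    have hxi : x⁻¹ = x := inv_eq_of_mul_eq_one_left hx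
    have hyi : y⁻¹ = y := inv_eq_of_mul_eq_one_left hy
    have h1 : x * (y * (x * (y * (x * (y * (x * 1)))))) = (x * y * x) * y * (x * y * x)⁻¹ := by
      rw [_root_.mul_inv_rev, _root_.mul_inv_rev, hxi, hyi, mul_one]; simp only [mul_assoc]
    refine ⟨?_, h1⟩
    rw [h1]
    have : x * y * x * y * (x * y * x)⁻¹ * (x * y * x * y * (x * y * x)⁻¹) = (x * y * x) * (y * y) * (x * y * x)⁻¹ := by group
    rw [this, hy]; group
  obtain ⟨y, hy, h⟩ := exists_conj_rep (R := (twF Z).tw) (t := t) (by rw [TwData.tw_Grp]; exact ht) htt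
    (k := k) (by
      intro h hh
      refine sqrt_of_pow (N := Fintype.card K - 1) hk ?_
      have h1 : (h : GL chevF4.Idx K) ∈ chevF4.diagonalSubgroup K := by
        have h2 : h ∈ (rinst goodF4 DData.dF4 K).R.H := hh.1
        rw [(rinst goodF4 DData.dF4 K).H_eq] at h2
        exact h2
      exact Subtype.ext (diag_pow R goodF4 h1)) (PR Z) (by
      intro w hw hww'
      obtain ⟨j, rfl⟩ := mem_W16 hw
      have hnd : (twF Z).tw.nd (word16 j) ∈ (twF Z).tw.N := RGrp.nd_mem_N _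
      have hact : (twF Z).tw.Act ((twF Z).tw.nd (word16 j)) (el16 j) := RGrp.act_nd _
      refine ⟨_, hnd, hact, ?_⟩
      rcases invol16 j hww' with rfl | rfl | rfl | rfl | rfl | rfl | rfl | rfl | rfl | rfl
      · exact ⟨mul_one _, Or.inl rfl⟩
      · show (twF Z).tw.nn 0 * 1 * ((twF Z).tw.nn 0 * 1) = 1 ∧ PR Z ((twF Z).tw.nn 0 * 1)
        rw [na, mul_one]; exact ⟨haa, pa⟩
      · show (twF Z).tw.nn 1 * 1 * ((twF Z).tw.nn 1 * 1) = 1 ∧ PR Z ((twF Z).tw.nn 1 * 1)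
        rw [nb, mul_one]; exact ⟨hbb, pb⟩
      · show (twF Z).tw.nn 0 * ((twF Z).tw.nn 1 * ((twF Z).tw.nn 0 * 1)) * ((twF Z).tw.nn 0 * ((twF Z).tw.nn 1 * ((twF Z).tw.nn 0 * 1))) = 1 ∧
          PR Z ((twF Z).tw.nn 0 * ((twF Z).tw.nn 1 * ((twF Z).tw.nn 0 * 1)))
        rw [na, nb]
        obtain ⟨f1, f2⟩ := e1 a b haa hbb
        exact ⟨f1, by rw [f2]; exact pb.conj Z m0⟩
      · show (twF Z).tw.nn 1 * ((twF Z).tw.nn 0 * ((twF Z).tw.nn 1 * 1)) * ((twF Z).tw.nn 1 * ((twF Z).tw.nn 0 * ((twF Z).tw.nn 1 * 1))) = 1 ∧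
          PR Z ((twF Z).tw.nn 1 * ((twF Z).tw.nn 0 * ((twF Z).tw.nn 1 * 1)))
        rw [na, nb]
        obtain ⟨f1, f2⟩ := e1 b a hbb haa
        exact ⟨f1, by rw [f2]; exact pa.conj Z m1⟩
      · have hn : (twF Z).tw.nd (word16 9) = a * (b * (a * (b * (a * 1)))) := by rw [← na, ← nb]; rfl
        rw [hn]
        obtain ⟨f1, f2⟩ := e2 a b haa hbb
        exact ⟨f1, by rw [f2]; exact pa.conj Z (mul_mem m0 m1)⟩
      · have hn : (twF Z).tw.nd (word16 10) = b * (a * (b * (a * (b * 1)))) := by rw [← na, ← nb]; rfl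
        rw [hn]
        obtain ⟨f1, f2⟩ := e2 b a hbb haa
        exact ⟨f1, by rw [f2]; exact pb.conj Z (mul_mem m1 m0)⟩
      · have hn : (twF Z).tw.nd (word16 13) = a * (b * (a * (b * (a * (b * (a * 1)))))) := by rw [← na, ← nb]; rfl
        rw [hn]
        obtain ⟨f1, f2⟩ := e3 a b haa hbb
        exact ⟨f1, by rw [f2]; exact pb.conj Z (mul_mem (mul_mem m0 m1) m0)⟩
      · have hn : (twF Z).tw.nd (word16 14) = b * (a * (b * (a * (b * (a * (b * 1)))))) := by rw [← na, ← nb]; rfl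
        rw [hn]
        obtain ⟨f1, f2⟩ := e3 b a hbb haa
        exact ⟨f1, by rw [f2]; exact pa.conj Z (mul_mem (mul_mem m1 m0) m1)⟩
      · have hn : (twF Z).tw.nd (word16 15) = a * (b * (a * (b * (a * (b * (a * (b * 1))))))) := by rw [← na, ← nb]; rfl
        rw [hn, mul_one]
        exact ⟨hww, pw⟩)
  rw [TwData.tw_Grp] at hy
  rcases h with h | ⟨z, hz, h⟩
  · exfalso
    apply ht1
    have : t = y⁻¹ * (y * t * y⁻¹) * y := by group
    rw [this, h]; group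
  · refine ⟨z * y, mul_mem hz hy, ?_⟩
    have e : z * y * t * (z * y)⁻¹ = z * (y * t * y⁻¹) * z⁻¹ := by group
    rw [e]; exact h

end Cfsg.Agent.ChevF
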