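import Cfsg.Agent.ChevF.InvTF4

set_option autoImplicit false
set_option maxRecDepth 100000

/-!
Involutions of the twisted groups of type F4 and of the Tits group: the count.
-/

namespace Cfsg.Agent.ChevF

open Cfsg.Lie Cfsg.Agent.Chev Cfsg.Agent.ChevGrp Cfsg.Agent.ChevWeyl Cfsg.Agent.ChevTw Cfsg.Agent.ChevU Cfsg.Agent.Tw4 Matrix

section abs

/-- representatives of the classes of involutions -/
structure Reps2 (A : Type*) [Group A] {m : ℕ} (r : Fin m → A) : Prop where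
  ord : ∀ i, orderOf (r i) = 2
  inj : ∀ i j, ∀ c : A, c * r i * c⁻¹ = r j → i = j
  all : ∀ t : A, orderOf t = 2 → ∃ i, ∃ y : A, y * t * y⁻¹ = r i

theorem Reps2.ncard {A : Type*} [Group A] {m : ℕ} {r : Fin m → A} (h : Reps2 A r) :
    (ConjClasses.mk '' {g : A | orderOf g = 2}).ncard = m := by
  have h1 : ConjClasses.mk '' {g : A | orderOf g = 2} = Set.range fun i => ConjClasses.mk (r i) := by
    ext c
    constructor
    · rintro ⟨g, hg, rfl⟩
      obtain ⟨i, y, h⟩ := h.all g hg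
      refine ⟨i, ?_⟩
      symm
      rw [ConjClasses.mk_eq_mk_iff_isConj, isConj_iff]
      exact ⟨y, h⟩
    · rintro ⟨i, rfl⟩
      exact ⟨r i, h.ord i, rfl⟩
  have h3 : Function.Injective fun i => ConjClasses.mk (r i) := by
    intro i j hij
    have h4 : ConjClasses.mk (r i) = ConjClasses.mk (r j) := hij
    rw [ConjClasses.mk_eq_mk_iff_isConj, isConj_iff] at h4
    obtain ⟨c, hc'⟩ := h4
    exact h.inj i j c hc'
  rw [h1, ← Set.image_univ, Set.ncard_image_of_injective _ h3, Set.ncard_univ, Nat.card_eq_fintype_card, Fintype.card_fin]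

theorem Reps2.map {A B : Type*} [Group A] [Group B] {m : ℕ} {r : Fin m → A} (h : Reps2 A r) (e : A ≃* B) :
    Reps2 B (fun i => e (r i)) where
  ord i := by rw [e.orderOf_eq]; exact h.ord i
  inj i j c hc := by
    apply h.inj i j (e.symm c)
    apply e.injective
    rw [map_mul, map_mul, map_inv, e.apply_symm_apply]; exact hc
  all t ht := by
    obtain ⟨i, y, hy⟩ := h.all (e.symm t) (by rw [e.symm.orderOf_eq]; exact ht)
    refine ⟨i, e y, ?_⟩
    rw [← hy, map_mul, map_mul, map_inv, e.apply_symm_apply]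

theorem Reps2.sub {A : Type*} [Group A] {m : ℕ} {r : Fin m → A} (h : Reps2 A r) (T : Subgroup A) (hT : T.index = 2)
    (hr : ∀ i, r i ∈ T) (hc : ∀ i, ∃ c, c ∉ T ∧ c * r i = r i * c) : Reps2 ↥T (fun i => (⟨r i, hr i⟩ : ↥T)) where
  ord i := by rw [← Subgroup.orderOf_coe]; exact h.ord i
  inj i j c hc := h.inj i j c (congrArg Subtype.val hc)
  all t ht := by
    obtain ⟨i, y, hy⟩ := h.all t (by rw [Subgroup.orderOf_coe]; exact ht)
    by_cases hyT : y ∈ T
    · exact ⟨i, ⟨y, hyT⟩, Subtype.ext hy⟩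
    · obtain ⟨c, hcT, hcr⟩ := hc i
      have h1 : c * y ∈ T := (Subgroup.mul_mem_iff_of_index_two hT).2 (iff_of_false hcT hyT)
      refine ⟨i, ⟨c * y, h1⟩, Subtype.ext ?_⟩
      show c * y * t * (c * y)⁻¹ = r i
      have e1 : c * y * t * (c * y)⁻¹ = c * (y * t * y⁻¹) * c⁻¹ := by group
      rw [e1, hy, hcr]; group

/-- the isomorphism of the derived subgroups -/
noncomputable def commEquiv {A B : Type*} [Group A] [Group B] (e : A ≃* B) : ↥(commutator A) ≃* ↥(commutator B) :=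
  (e.subgroupMap (commutator A)).trans (MulEquiv.subgroupCongr (map_comm_equiv e))

theorem count_of_equiv {A B : Type*} [Group A] [Group B] (e : A ≃* B) {m : ℕ} {r : Fin m → ↥(commutator A)}
    (h : Reps2 ↥(commutator A) r) : (ConjClasses.mk '' {g : ↥(commutator B) | orderOf g = 2}).ncard = m :=
  (h.map (commEquiv e)).ncard

end abs

variable {K : Type*} [Field K] (Z : Sg K)

theorem wF_tL [CharP K 2] (W : List ℕ) : ((wF W : ↥(chevF4.group K)) : GL chevF4.Idx K) = tL goodF4 K W := by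
  apply Units.ext
  rw [tL_coe]
  induction W with
  | nil => rfl
  | cons r W ih =>
    rw [wF_cons, Subgroup.coe_mul, Units.val_mul, ih, xG_coe]; rfl

include Z in
theorem a_ne : (wF [39, 45] : ↥(chevF4.group K)) ≠ 1 := by
  have c : ∀ {n g g' : ↥(chevF4.group K)}, n * g * n⁻¹ = g' → g ≠ 1 → g' ≠ 1 := by
    intro n g g' h hg h'
    apply hg
    have : g = n⁻¹ * g' * n := by rw [← h]; group
    rw [this, h']; group
  have h0 : (g8 0 : ↥(chevF4.group K)) ≠ 1 := by rw [g8_0 Z]; exact eP_one_ne Z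
  have h6 := c (nd1_g8 Z (k := 0) (by norm_num)) h0
  have h2 := c (nd0_g8 Z (k := 6) (by norm_num) (by norm_num)) h6
  exact c (nd1_g8 Z (k := 2) (by norm_num)) h2

include Z in
theorem b_ne [CharP K 2] : (wF [47, 44] : ↥(chevF4.group K)) ≠ 1 := by
  have h := g8_sq_ne Z (k := 3) (by norm_num) (by norm_num)
  rw [pow_two] at h
  rw [← wF_chk chk_c4, wF_append]
  exact h

/-- the representatives -/
noncomputable def rF [CharP K 2] : Fin 2 → ↥(twF Z).tw.Grp :=
  ![⟨wF [39, 45], by rw [TwData.tw_Grp]; exact a_G1 Z⟩, ⟨wF [47, 44], by rw [TwData.tw_Grp]; exact b_G1 Z⟩]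

theorem reps_F4 [CharP K 2] [Fintype K] : Reps2 ↥(twF Z).tw.Grp (rF Z) where
  ord i := by
    have hi := (by decide : ∀ i : Fin 2, i = 0 ∨ i = 1) i
    rcases hi with rfl | rfl
    · refine orderOf_eq_prime (Subtype.ext ?_) (fun h => a_ne Z (congrArg Subtype.val h))
      show (wF [39, 45] : ↥(chevF4.group K)) ^ 2 = 1
      rw [pow_two, ← wF_append, wF_chk chk_a, wF_nil]
    · refine orderOf_eq_prime (Subtype.ext ?_) (fun h => b_ne Z (congrArg Subtype.val h))
      show (wF [47, 44] : ↥(chevF4.group K)) ^ 2 = 1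
      rw [pow_two, ← wF_append, wF_chk chk_b, wF_nil]
  inj i j c hc := by
    obtain ⟨R⟩ := nonempty_rootFacts (D := chevF4) (by simp)
    have key : ∀ {L L' : List ℕ}, L ∈ IvF4.reps → L' ∈ IvF4.reps → ∀ c : ↥(chevF4.group K),
        c * wF L * c⁻¹ = wF L' → L = L' := by
      intro L L' hL hL' c h
      refine F4_noconj R goodF4 DData.dF4 (F := K) L hL L' hL' ⟨c, c.2, ?_⟩
      rw [← wF_tL, ← wF_tL]
      exact congrArg Subtype.val h
    have hc' := congrArg (Subtype.val : ↥(twF Z).tw.Grp → ↥(chevF4.group K)) hc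
    have hi := (by decide : ∀ i : Fin 2, i = 0 ∨ i = 1) i
    have hj := (by decide : ∀ i : Fin 2, i = 0 ∨ i = 1) j
    rcases hi with rfl | rfl <;> rcases hj with rfl | rfl
    · rfl
    · exact absurd (key (L := [39, 45]) (L' := [47, 44]) (by simp [IvF4.reps]) (by simp [IvF4.reps]) c hc') (by decide)
    · exact absurd (key (L := [47, 44]) (L' := [39, 45]) (by simp [IvF4.reps]) (by simp [IvF4.reps]) c hc') (by decide)
    · rfl
  all t ht := by
    have ht2 : t ^ 2 = 1 := by have h := pow_orderOf_eq_one t; rw [ht] at h; exact h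
    have ht1 : t ≠ 1 := by intro h; rw [h, orderOf_one] at ht; omega
    have htG : (t : ↥(chevF4.group K)) ∈ (twF Z).G1 := (le_of_eq (twF Z).tw_Grp) t.2
    obtain ⟨y, hy, h⟩ := PR_all Z (t := (t : ↥(chevF4.group K))) htG (by
        rw [pow_two] at ht2
        exact congrArg (Subtype.val : ↥(twF Z).tw.Grp → ↥(chevF4.group K)) ht2) (fun h => ht1 (Subtype.ext h))
    have hy : y ∈ (twF Z).tw.Grp := (le_of_eq (twF Z).tw_Grp.symm) hy
    rcases h with h | h
    · exact ⟨0, ⟨y, hy⟩, Subtype.ext h⟩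
    · exact ⟨1, ⟨y, hy⟩, Subtype.ext h⟩

/-- the number of classes of involutions in the twisted groups of type F4 -/
theorem count_F4 {K : Type*} [Field K] [Fintype K] {m : ℕ} (hK : Fintype.card K = 2 ^ (2 * m + 1)) :
    (ConjClasses.mk '' {g : ↥(twistedF4 K (2 ^ m)) | orderOf g = 2}).ncard = 2 := by
  obtain ⟨Z, hZ⟩ := exists_Sg hK
  have : CharP K 2 := CharTwo.of_one_ne_zero_of_two_eq_zero one_ne_zero Z.two
  exact ((reps_F4 Z).map (eqTw Z hZ)).ncard

/-- the number of classes of involutions in the derived subgroup -/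
theorem reps_T [CharP K 2] [Fintype K] (hK : ∀ t : K, t = 0 ∨ t = 1) :
    ∃ r : Fin 2 → ↥(commutator ↥(twF Z).tw.Grp), Reps2 ↥(commutator ↥(twF Z).tw.Grp) r := by
  have m := fun {k : ℕ} (hk : k < 8) => g8_mem_G Z hK hk
  have m0 := m (k := 0) (by norm_num)
  have m1 := m (k := 1) (by norm_num)
  have m2 := m (k := 2) (by norm_num)
  have m3 := m (k := 3) (by norm_num)
  have m4 := m (k := 4) (by norm_num)
  have m5 := m (k := 5) (by norm_num)
  have m6 := m (k := 6) (by norm_num)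
  have m7 := m (k := 7) (by norm_num)
  obtain ⟨f, hf⟩ : ∃ f : ↥(twF Z).tw.Grp →* Abelianization ↥(twF Z).tw.Grp, f = Abelianization.of := ⟨_, rfl⟩
  have c6 : f ⟨g8 6, m6⟩ = f ⟨g8 0, m0⟩ := f_conj Z f (nd_mem_G Z 1) _ _ (nd1_g8 Z (k := 0) (by norm_num))
  have c2 : f ⟨g8 2, m2⟩ = f ⟨g8 6, m6⟩ := f_conj Z f (nd_mem_G Z 0) _ _ (nd0_g8 Z (k := 6) (by norm_num) (by norm_num))
  have c4 : f ⟨g8 4, m4⟩ = f ⟨g8 2, m2⟩ := f_conj Z f (nd_mem_G Z 1) _ _ (nd1_g8 Z (k := 2) (by norm_num))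
  have c1 : f ⟨g8 1, m1⟩ = f ⟨g8 7, m7⟩ := f_conj Z f (nd_mem_G Z 0) _ _ (nd0_g8 Z (k := 7) (by norm_num) (by norm_num))
  have c5 : f ⟨g8 5, m5⟩ = f ⟨g8 1, m1⟩ := f_conj Z f (nd_mem_G Z 1) _ _ (nd1_g8 Z (k := 1) (by norm_num))
  have c3 : f ⟨g8 3, m3⟩ = f ⟨g8 5, m5⟩ := f_conj Z f (nd_mem_G Z 0) _ _ (nd0_g8 Z (k := 5) (by norm_num) (by norm_num))
  have fa : f ⟨g8 4, m4⟩ = 1 := by rw [c4, c2, c6]; exact f_even Z hK f
  have fb : f ⟨g8 3 * g8 3, mul_mem m3 m3⟩ = 1 := by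
    have h1 : f ⟨g8 3 * g8 3, mul_mem m3 m3⟩ = f ⟨g8 3, m3⟩ * f ⟨g8 3, m3⟩ := f_mul Z f _ _ _ rfl
    rw [h1, c3, c5, c1, ← pow_two]
    exact f_odd Z hK f
  have ra : ∀ i, rF Z i ∈ commutator ↥(twF Z).tw.Grp := by
    intro i
    have hi := (by decide : ∀ i : Fin 2, i = 0 ∨ i = 1) i
    rw [hf] at fa fb
    rcases hi with rfl | rfl
    · exact mem_comm_of fa
    · have h1 := mem_comm_of fb
      have h2 : (⟨g8 3 * g8 3, mul_mem m3 m3⟩ : ↥(twF Z).tw.Grp) = rF Z 1 := by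
        apply Subtype.ext
        show (wF (gW 3) * wF (gW 3) : ↥(chevF4.group K)) = wF [47, 44]
        rw [← wF_append, wF_chk chk_c4]
      rwa [h2] at h1
  have h3 : (⟨g8 3, m3⟩ : ↥(twF Z).tw.Grp) ∉ commutator ↥(twF Z).tw.Grp := by
    intro h
    obtain ⟨s, hs⟩ := exists_sgn Z hK
    have h1 : s ⟨g8 3, m3⟩ = 1 := Abelianization.commutator_subset_ker s h
    rw [hs _ _ (g8_mem_U Z hK (by norm_num)), sgU_g8] at h1
    exact absurd h1 (by decide)
  have hc : ∀ i, ∃ c, c ∉ commutator ↥(twF Z).tw.Grp ∧ c * rF Z i = rF Z i * c := by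
    intro i
    refine ⟨⟨g8 3, m3⟩, h3, ?_⟩
    have e0 : (g8 3 * wF [39, 45] : ↥(chevF4.group K)) = wF [39, 45] * g8 3 := by
      have h := wF_chk (K := K) chk_c3
      rw [wF_append, wF_append] at h
      exact h
    have e1 : (g8 3 * wF [47, 44] : ↥(chevF4.group K)) = wF [47, 44] * g8 3 := by
      have h := wF_chk (K := K) chk_c4
      rw [wF_append] at h
      have h' : (g8 3 * g8 3 : ↥(chevF4.group K)) = wF [47, 44] := h
      rw [← h', mul_assoc]
    have hi := (by decide : ∀ i : Fin 2, i = 0 ∨ i = 1) i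
    rcases hi with rfl | rfl
    · exact Subtype.ext e0
    · exact Subtype.ext e1
  have hidx : (commutator ↥(twF Z).tw.Grp).index = 2 := index_comm_tw Z hK
  have hR := reps_F4 Z
  exact ⟨_, hR.sub (commutator ↥(twF Z).tw.Grp) hidx ra hc⟩

/-- the number of classes of involutions in the derived subgroup over the field with two elements -/
theorem count_Tits {K : Type*} [Field K] [Fintype K] {m : ℕ} (hq : Fintype.card K = 2 ^ (2 * m + 1))
    (hK : ∀ t : K, t = 0 ∨ t = 1) :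
    (ConjClasses.mk '' {g : ↥(commutator ↥(twistedF4 K (2 ^ m))) | orderOf g = 2}).ncard = 2 := by
  obtain ⟨Z, hZ⟩ := exists_Sg hq
  have : CharP K 2 := CharTwo.of_one_ne_zero_of_two_eq_zero one_ne_zero Z.two
  obtain ⟨r, hr⟩ := reps_T Z hK
  exact count_of_equiv (eqTw Z hZ) hr

end Cfsg.Agent.ChevF
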